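import Mathlib

/-! # Finite algebras with a standard involution in characteristic two

An elementary abelian 2-group of automorphisms of such an algebra has at most `|F|` elements, and each
non-trivial element moves a subspace of dimension two. -/

set_option autoImplicit false

namespace CfsgLib.PGV

/-- An `F`-algebra `E` with a trace `τ` such that `z ↦ z + τ z` is an anti-automorphism. -/
structure QData (F E : Type*) [Field F] [Ring E] [Algebra F E] where
  τ : E →ₗ[F] F
  two : (2 : F) = 0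
  τ_one : τ 1 = 0
  anti : ∀ z w : E, z * w + τ (z * w) • (1 : E) = (w + τ w • (1 : E)) * (z + τ z • (1 : E))
  norm : ∀ z : E, ∃ s : F, z * (z + τ z • (1 : E)) = s • (1 : E)
  nd : ∀ z : E, z ≠ 0 → ∃ y, τ (z * y) ≠ 0
  nc : ∃ x y : E, x * y ≠ y * x

namespace QData

variable {F E : Type*} [Field F] [Ring E] [Algebra F E] (D : QData F E)

include D in
theorem add_self (z : E) : z + z = 0 := by
  rw [← two_smul F z, D.two, zero_smul]

include D in
theorem add_selfF (z : F) : z + z = 0 := by
  rw [← two_mul, D.two, zero_mul]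

include D in
theorem nontriv : Nontrivial E := by
  obtain ⟨x, y, h⟩ := D.nc
  exact ⟨_, _, h⟩

include D in
theorem eq_of_add {z w : E} (h : z + w = 0) : z = w := by
  have := D.add_self w
  rw [← this] at h
  exact add_right_cancel h

/-- The conjugate `z + τ z`. -/
def σ (z : E) : E := z + D.τ z • (1 : E)

theorem mul_add_σ (z w : E) : z * w + D.σ w * D.σ z = D.τ (z * w) • (1 : E) := by
  unfold σ
  rw [← D.anti, ← add_assoc, D.add_self, zero_add]

theorem σ_of_τ {n : E} (h : D.τ n = 0) : D.σ n = n := by simp [σ, h]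

theorem τ_σ (z : E) : D.τ (D.σ z) = D.τ z := by simp [σ, D.τ_one]

theorem sandwich {n : E} (h : D.τ n = 0) (h2 : n * n = 0) (z : E) :
    n * z * n = D.τ (z * n) • n := by
  have := congrArg (n * ·) (D.mul_add_σ z n)
  simp only [D.σ_of_τ h, mul_add, ← mul_assoc, h2, zero_mul, add_zero, mul_smul_comm, mul_one] at this
  exact this

include D in
theorem smul_one_inj {a b : F} (h : a • (1 : E) = b • (1 : E)) : a = b := by
  haveI := D.nontriv
  have : (a - b) • (1 : E) = 0 := by rw [sub_smul, h, sub_self]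
  rcases smul_eq_zero.1 this with h | h
  · exact sub_eq_zero.1 h
  · exact absurd h one_ne_zero

theorem τ_comm {n : E} (h : D.τ n = 0) (y : E) : D.τ (n * y) = D.τ (y * n) := by
  apply D.smul_one_inj
  rw [← D.mul_add_σ, ← D.mul_add_σ, D.σ_of_τ h]
  simp only [σ, add_mul, mul_add, smul_mul_assoc, mul_smul_comm, one_mul, mul_one]
  abel

theorem decomp {n y : E} (h : D.τ n = 0) (h2 : n * n = 0) (hy : D.τ (y * n) = 1) (z : E) :
    z = D.τ (y * z * y * n) • n + D.τ (y * z * n) • (n * D.σ y) + D.τ (z * y * n) • (D.σ y * n) +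
      D.τ (z * n) • (D.σ y * n * D.σ y) := by
  have e1 : n * y + D.σ y * n = 1 := by
    have := D.mul_add_σ n y
    rwa [D.σ_of_τ h, D.τ_comm h, hy, one_smul] at this
  have e2 : y * n + n * D.σ y = 1 := by
    have := D.mul_add_σ y n
    rwa [D.σ_of_τ h, hy, one_smul] at this
  have a1 := D.sandwich h h2 (y * z * y)
  have a2 := D.sandwich h h2 (y * z)
  have a3 := D.sandwich h h2 (z * y)
  have a4 := D.sandwich h h2 z
  calc z = (n * y + D.σ y * n) * z * (y * n + n * D.σ y) := by rw [e1, e2, one_mul, mul_one]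
    _ = n * (y * z * y) * n + n * (y * z) * n * D.σ y + D.σ y * (n * (z * y) * n) +
          D.σ y * (n * z * n) * D.σ y := by noncomm_ring
    _ = _ := by
      rw [a1, a2, a3, a4]
      simp only [smul_mul_assoc, mul_smul_comm]

theorem cent {n y : E} (h : D.τ n = 0) (h2 : n * n = 0) (hy : D.τ (y * n) = 1) {m : E}
    (hm : m * n = n * m) : ∃ α γ : F, m = α • (1 : E) + γ • n := by
  have hn : n ≠ 0 := by rintro rfl; simp at hy
  have hs : n * D.σ y * n = n := by
    rw [D.sandwich h h2]
    simp [σ, add_mul, hy, h]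
  have e2 : y * n + n * D.σ y = 1 := by
    have := D.mul_add_σ y n
    rwa [D.σ_of_τ h, hy, one_smul] at this
  have h0 : D.τ (m * n) = 0 := by
    have := D.sandwich h h2 m
    have e : n * m * n = 0 := by rw [mul_assoc, hm, ← mul_assoc, h2, zero_mul]
    rw [e] at this
    rcases smul_eq_zero.1 this.symm with h | h
    · exact h
    · exact absurd h hn
  have hd := D.decomp h h2 hy m
  rw [h0, zero_smul, add_zero] at hd
  set a := D.τ (y * m * y * n)
  set g := D.τ (y * m * n)
  set g' := D.τ (m * y * n)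
  have r1 : m * n = g • n := by
    conv_lhs => rw [hd]
    simp only [add_mul, smul_mul_assoc, h2, hs, mul_assoc (D.σ y) n n, mul_zero, smul_zero, zero_add,
      add_zero]
  have r2 : n * m = g' • n := by
    conv_lhs => rw [hd]
    simp only [mul_add, mul_smul_comm, h2, ← mul_assoc, hs, zero_mul, smul_zero, zero_add, add_zero]
  have hg : g = g' := by
    have : (g - g') • n = 0 := by rw [sub_smul, ← r1, ← r2, hm, sub_self]
    rcases smul_eq_zero.1 this with h | h
    · exact sub_eq_zero.1 h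
    · exact absurd h hn
  refine ⟨g, a + g * D.τ y, ?_⟩
  rw [hd, ← hg, ← e2]
  simp only [σ, add_mul, mul_add, smul_mul_assoc, one_mul, mul_one, mul_smul_comm, smul_add, add_smul,
    mul_smul]
  abel

theorem map_σ (c : E →ₐ[F] E) (hc : ∀ z, D.τ (c z) = D.τ z) (z : E) : c (D.σ z) = D.σ (c z) := by
  simp [σ, hc]

theorem ext_ny {n y : E} (h : D.τ n = 0) (h2 : n * n = 0) (hy : D.τ (y * n) = 1)
    (c c' : E →ₐ[F] E) (hc : ∀ z, D.τ (c z) = D.τ z) (hc' : ∀ z, D.τ (c' z) = D.τ z)
    (hn : c n = c' n) (hy' : c y = c' y) (z : E) : c z = c' z := by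
  rw [D.decomp h h2 hy z]
  simp only [map_add, map_smul, map_mul, D.map_σ c hc, D.map_σ c' hc', hn, hy']

include D in
/-- A non-trivial automorphism moves some element by a non-scalar. -/
theorem exists_nonscalar (c : E →ₐ[F] E) {z₀ : E} (hz : c z₀ ≠ z₀) :
    ∃ z, ∀ s : F, c z + z ≠ s • (1 : E) := by
  by_contra hcon
  push Not at hcon
  choose l hl using hcon
  have hc : ∀ z, c z = z + l z • (1 : E) := fun z => by
    rw [← hl z, add_comm (c z), ← add_assoc, D.add_self, zero_add]
  have h0 : l z₀ ≠ 0 := fun h => hz (by rw [hc, h, zero_smul, add_zero])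
  have key : ∀ w, ∃ a b : F, w = a • (1 : E) + b • z₀ := by
    intro w
    have e := hc (z₀ * w)
    rw [map_mul, hc z₀, hc w] at e
    simp only [add_mul, mul_add, smul_mul_assoc, mul_smul_comm, one_mul, mul_one, smul_smul] at e
    have e' : l z₀ • w = (l (z₀ * w) - l w * l z₀) • (1 : E) - l w • z₀ := by
      linear_combination (norm := module) e
    refine ⟨(l z₀)⁻¹ * (l (z₀ * w) - l w * l z₀), -((l z₀)⁻¹ * l w), ?_⟩
    have : w = (l z₀)⁻¹ • (l z₀ • w) := by rw [smul_smul, inv_mul_cancel₀ h0, one_smul]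
    conv_lhs => rw [this, e']
    simp only [smul_sub, smul_smul, neg_smul]
    abel
  obtain ⟨x, y, hxy⟩ := D.nc
  obtain ⟨a, b, rfl⟩ := key x
  obtain ⟨a', b', rfl⟩ := key y
  apply hxy
  simp only [add_mul, mul_add, smul_mul_assoc, mul_smul_comm, one_mul, mul_one, smul_add, smul_smul]
  simp only [mul_comm a' a, mul_comm a' b, mul_comm b' a, mul_comm b' b]
  abel

theorem main [Finite F] {B : Type*} (φ : B → (E →ₐ[F] E))
    (hinj : ∀ c c', (∀ z, φ c z = φ c' z) → c = c')
    (hinv : ∀ c z, φ c (φ c z) = z) (hcomm : ∀ c c' z, φ c (φ c' z) = φ c' (φ c z))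
    (hτ : ∀ c z, D.τ (φ c z) = D.τ z) {c : B} {z₀ : E} (hz : φ c z₀ ≠ z₀) :
    Nat.card B ≤ Nat.card F ∧ ∃ n y : E, n * n = 0 ∧ D.τ (y * n) = 1 ∧
      ∀ α γ : F, ∃ z, φ c z + z = α • (1 : E) + γ • n := by
  haveI : Fintype F := Fintype.ofFinite F
  haveI : CharP F 2 := by
    have := (CharP.charP_iff_prime_eq_zero (R := F) Nat.prime_two).2 (by exact_mod_cast D.two)
    exact this
  obtain ⟨z₁, hz₁⟩ := D.exists_nonscalar (φ c) hz
  obtain ⟨n₀, hn₀⟩ : ∃ n₀, n₀ = φ c z₁ + z₁ := ⟨_, rfl⟩
  rw [← hn₀] at hz₁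
  have hτ0 : D.τ n₀ = 0 := by rw [hn₀, map_add, hτ, D.add_selfF]
  obtain ⟨s, hs⟩ := D.norm n₀
  rw [hτ0, zero_smul, add_zero] at hs
  obtain ⟨r, hr⟩ := FiniteField.isSquare_of_char_two (ringChar.eq F 2) s
  obtain ⟨n, hn⟩ : ∃ n, n = n₀ + r • (1 : E) := ⟨_, rfl⟩
  have hτn : D.τ n = 0 := by simp [hn, hτ0, D.τ_one]
  have hn2 : n * n = 0 := by
    simp only [hn, add_mul, mul_add, smul_mul_assoc, mul_smul_comm, one_mul, mul_one, hs, smul_add,
      smul_smul, ← hr]
    have := D.add_self (s • (1 : E) + r • n₀)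
    rw [← this]; abel
  have hne : n ≠ 0 := fun h => hz₁ r (D.eq_of_add (hn ▸ h))
  obtain ⟨y₀, hy₀⟩ := D.nd n hne
  obtain ⟨y, hy⟩ : ∃ y, y = (D.τ (n * y₀))⁻¹ • y₀ := ⟨_, rfl⟩
  have hyn : D.τ (y * n) = 1 := by
    rw [hy, smul_mul_assoc, map_smul, ← D.τ_comm hτn, smul_eq_mul, inv_mul_cancel₀ hy₀]
  have hcn : φ c n = n := by
    rw [hn, hn₀, map_add, map_add, hinv, map_smul, map_one, add_comm z₁]
  -- elements of trace zero orthogonal to `n` commute with `n`
  have hcom : ∀ m, D.τ m = 0 → D.τ (m * n) = 0 → m * n = n * m := by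
    intro m h1 h2
    have := D.mul_add_σ m n
    rw [D.σ_of_τ h1, D.σ_of_τ hτn, h2, zero_smul] at this
    exact D.eq_of_add this
  have horth : ∀ c', φ c' n = n → ∀ z, D.τ ((φ c' z + z) * n) = 0 := by
    intro c' h z
    have : φ c' z * n = φ c' (z * n) := by rw [map_mul, h]
    rw [add_mul, map_add, this, hτ, D.add_selfF]
  have hτd : ∀ c' z, D.τ (φ c' z + z) = 0 := fun c' z => by rw [map_add, hτ, D.add_selfF]
  have hfix : ∀ c', φ c' n = n := by
    intro c'
    have e : φ c' n = (φ c (φ c' z₁) + φ c' z₁) + r • (1 : E) := by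
      rw [hn, hn₀, map_add, map_add, map_smul, map_one, hcomm]
    have h1 : φ c' n * n = n * φ c' n := by
      have := hcom _ (hτd c (φ c' z₁)) (horth c hcn _)
      rw [e, add_mul, mul_add, this]
      simp
    obtain ⟨α, γ, h⟩ := D.cent hτn hn2 hyn h1
    have h2 : φ c' n * φ c' n = 0 := by rw [← map_mul, hn2, map_zero]
    rw [h] at h2
    simp only [add_mul, mul_add, smul_mul_assoc, mul_smul_comm, one_mul, mul_one, hn2, smul_zero,
      add_zero, smul_add, smul_smul, mul_comm γ α] at h2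
    rw [add_assoc, D.add_self, add_zero] at h2
    have hα : α = 0 := by
      have := D.smul_one_inj (a := α * α) (b := 0) (by rw [h2, zero_smul])
      exact mul_self_eq_zero.1 this
    rw [hα, zero_smul, zero_add] at h
    have h3 := hinv c' n
    rw [h, map_smul, h, smul_smul] at h3
    have hγ : γ * γ = 1 := by
      have : (γ * γ - 1) • n = 0 := by rw [sub_smul, h3, one_smul, sub_self]
      rcases smul_eq_zero.1 this with h | h
      · exact sub_eq_zero.1 h
      · exact absurd h hne
    have hγ1 : γ = 1 := by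
      have : (γ - 1) * (γ - 1) = 0 := by
        have := D.two
        linear_combination hγ + (1 - γ) * this
      exact sub_eq_zero.1 (mul_self_eq_zero.1 this)
    rw [h, hγ1, one_smul]
  have hy' : ∀ c', ∃ α : F, φ c' y + y = α • (1 : E) + (α * α + α * D.τ y) • n := by
    intro c'
    obtain ⟨α, γ, h⟩ := D.cent hτn hn2 hyn (hcom _ (hτd c' y) (horth c' (hfix c') y))
    refine ⟨α, ?_⟩
    rw [h]
    congr 2
    obtain ⟨t, ht⟩ := D.norm y
    have ht' := congrArg (φ c') ht
    rw [map_mul, map_add, map_smul, map_one, map_smul, map_one, ← ht] at ht'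
    have e : φ c' y = y + (α • (1 : E) + γ • n) := by
      rw [← h, add_comm (φ c' y), ← add_assoc, D.add_self, zero_add]
    have e2 : y * n + n * D.σ y = 1 := by
      have := D.mul_add_σ y n
      rwa [D.σ_of_τ hτn, hyn, one_smul] at this
    rw [e] at ht'
    apply D.smul_one_inj
    have a1 := D.add_self (α • y)
    have a2 := D.add_self ((α * γ) • n)
    have a3 := D.add_self ((α * α + α * D.τ y) • (1 : E))
    simp only [σ, add_mul, mul_add, smul_mul_assoc, mul_smul_comm, one_mul, mul_one, hn2, smul_zero,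
      add_zero, smul_add, smul_smul] at ht' e2
    linear_combination (norm := module) ht' - γ • e2 - a1 - a2 - a3
  choose l hl using hy'
  have hlinj : Function.Injective l := by
    intro c₁ c₂ h
    apply hinj
    apply D.ext_ny hτn hn2 hyn _ _ (hτ c₁) (hτ c₂) (by rw [hfix, hfix])
    have := hl c₁
    rw [h, ← hl c₂] at this
    exact add_right_cancel this
  refine ⟨Nat.card_le_card_of_injective l hlinj, n, y, hn2, hyn, ?_⟩
  have hl0 : l c ≠ 0 := by
    intro h
    have h1 := hl c
    simp only [h, zero_smul, mul_zero, zero_mul, add_zero] at h1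
    have h2 := D.ext_ny hτn hn2 hyn (φ c) (AlgHom.id F E) (hτ c) (fun _ => rfl) hcn (D.eq_of_add h1) z₀
    exact hz h2
  have hny : φ c (n * y) + n * y = l c • n := by
    rw [map_mul, hcn, ← mul_add, hl c]
    simp [mul_add, hn2]
  intro α γ
  refine ⟨(α * (l c)⁻¹) • y + ((γ - α * (l c + D.τ y)) * (l c)⁻¹) • (n * y), ?_⟩
  rw [map_add, map_smul, map_smul, add_add_add_comm, ← smul_add, ← smul_add, hl c, hny]
  simp only [smul_add, smul_smul]
  rw [add_assoc, ← add_smul]
  congr 2
  · field_simp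
  · field_simp; ring

end QData

end CfsgLib.PGV
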