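import Mathlib
import Cfsg.Agent.Lib.Comp.Component

/-! # Tools for the P(G,V)-theorem: components acting on modules -/

set_option autoImplicit false

namespace CfsgLib.PGV

open Subgroup
open scoped commutatorElement

section Grp

variable {G : Type*} [Group G]

/-- The conjugate `a K a⁻¹`. -/
def kc (K : Subgroup G) (a : G) : Subgroup G := K.map (MulAut.conj a).toMonoidHom

theorem mem_kc {K : Subgroup G} {a y : G} : y ∈ kc K a ↔ a⁻¹ * y * a ∈ K := by
  constructor
  · rintro ⟨x, hx, rfl⟩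
    simpa [mul_assoc] using hx
  · intro h
    exact ⟨_, h, by simp [mul_assoc]⟩

theorem conj_mem_kc {K : Subgroup G} (a : G) {x : G} (hx : x ∈ K) : a * x * a⁻¹ ∈ kc K a :=
  ⟨x, hx, rfl⟩

theorem kc_kc (K : Subgroup G) (a b : G) : kc (kc K a) b = kc K (b * a) := by
  ext y
  simp only [mem_kc, mul_inv_rev, mul_assoc]

theorem kc_one (K : Subgroup G) : kc K 1 = K := by
  ext y; simp [mem_kc]

theorem kc_inj {K L : Subgroup G} {a : G} (h : kc K a = kc L a) : K = L := by
  have := congrArg (kc · a⁻¹) h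
  simpa only [kc_kc, inv_mul_cancel, kc_one] using this

theorem conj_mem_of_kc {K : Subgroup G} {a x : G} (h : kc K a = K) (hx : x ∈ K) : a * x * a⁻¹ ∈ K :=
  h ▸ conj_mem_kc a hx

theorem mem_normalizer_of_kc {K : Subgroup G} {a : G} (h : kc K a = K) :
    a ∈ normalizer (K : Set G) := by
  rw [mem_normalizer_iff]
  intro x
  constructor
  · exact conj_mem_of_kc h
  · intro hx
    rw [← h, mem_kc] at hx
    simpa [mul_assoc] using hx

theorem comp_kc {K : Subgroup G} (hK : Cfsg.IsComponent K) (a : G) : Cfsg.IsComponent (kc K a) :=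
  CfsgLib.Comp.comp_map_conj hK a

theorem comm_of_ne {K L : Subgroup G} (hK : Cfsg.IsComponent K) (hL : Cfsg.IsComponent L) (h : K ≠ L)
    {x y : G} (hx : x ∈ K) (hy : y ∈ L) : Commute x y :=
  (CfsgLib.Comp.comp_le_centralizer_of_ne hK hL h hx y hy).symm

theorem le_normalizer_of_conj {K N : Subgroup G} (hN : ∀ k ∈ K, ∀ n ∈ N, k * n * k⁻¹ ∈ N) :
    K ≤ normalizer (N : Set G) := by
  intro k hk
  rw [mem_normalizer_iff]
  intro n
  refine ⟨hN k hk n, fun h => ?_⟩
  simpa [mul_assoc] using hN k⁻¹ (inv_mem hk) _ h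

theorem le_of_conj {K N : Subgroup G} (hK : Cfsg.IsComponent K)
    (hN : ∀ k ∈ K, ∀ n ∈ N, k * n * k⁻¹ ∈ N) {a : G} (ha : a ∈ N) (hac : ¬ ∀ k ∈ K, Commute k a) :
    K ≤ N := by
  rcases CfsgLib.Comp.comp_le_or_commutator_of_le_normalizer hK (le_normalizer_of_conj hN) with h | h
  · exact h
  · rw [commutator_eq_bot_iff_le_centralizer] at h
    exact absurd (fun k hk => (h hk a ha).symm) hac

theorem le_of_comm {K N : Subgroup G} (hK : Cfsg.IsComponent K)
    (hN : ∀ x ∈ K, ∀ y ∈ K, ⁅x, y⁆ ∈ N) : K ≤ N := by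
  rw [← CfsgLib.Comp.comp_perfect hK]
  exact commutator_le.2 hN

theorem le_of_comm_elt {K N : Subgroup G} (hK : Cfsg.IsComponent K) {a : G} (ha : kc K a = K)
    (hac : ¬ ∀ k ∈ K, Commute k a) (hN : ∀ x ∈ K, ⁅x, a⁆ ∈ N) : K ≤ N := by
  set M := closure {y | ∃ x ∈ K, y = ⁅x, a⁆} with hM
  have hMN : M ≤ N := (closure_le _).2 (by rintro _ ⟨x, hx, rfl⟩; exact hN x hx)
  have hK1 : ∀ x ∈ K, ⁅x, a⁆ ∈ K := fun x hx => by
    have := mul_mem hx (conj_mem_of_kc ha (inv_mem hx))
    simpa [commutatorElement_def, mul_assoc] using this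
  have hMK : M ≤ K := (closure_le _).2 (by rintro _ ⟨x, hx, rfl⟩; exact hK1 x hx)
  have hn : K ≤ normalizer (M : Set G) := by
    apply le_normalizer_of_conj
    intro k hk n hn
    induction hn using closure_induction with
    | mem y hy =>
      obtain ⟨x, hx, rfl⟩ := hy
      have e : k * ⁅x, a⁆ * k⁻¹ = ⁅k * x, a⁆ * ⁅k, a⁆⁻¹ := by
        simp [commutatorElement_def, mul_assoc]
      rw [e]
      exact mul_mem (subset_closure ⟨_, mul_mem hk hx, rfl⟩) (inv_mem (subset_closure ⟨_, hk, rfl⟩))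
    | one => simp
    | mul x y _ _ hx hy =>
      have := mul_mem hx hy
      simpa [mul_assoc] using this
    | inv x _ hx =>
      have := inv_mem hx
      simpa [mul_assoc] using this
  rcases CfsgLib.Comp.qs_sub_normal hK.2 hMK hn with h | h
  · exact h ▸ hMN
  · exfalso
    apply hac
    have hc : ∀ x ∈ K, ∀ y ∈ K, Commute y ⁅x, a⁆ := fun x hx y hy =>
      h (subset_closure ⟨x, hx, rfl⟩) y hy
    have : K ≤ centralizer {a} := by
      apply le_of_comm hK
      intro x hx y hy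
      rw [mem_centralizer_singleton_iff]
      have ex : a * x * a⁻¹ = ⁅x, a⁆⁻¹ * x := by simp [commutatorElement_def, mul_assoc]
      have ey : a * y * a⁻¹ = ⁅y, a⁆⁻¹ * y := by simp [commutatorElement_def, mul_assoc]
      have e : a * ⁅x, y⁆ * a⁻¹ = ⁅x, y⁆ := by
        rw [conjugate_commutatorElement, ex, ey]
        have c1 := (hc x hx x hx).inv_right
        have c2 := (hc x hx y hy).inv_right
        have c3 := (hc y hy x hx).inv_right
        have c4 := (hc y hy y hy).inv_right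
        have c5 := ((hc y hy _ (hK1 x hx)).inv_right).inv_left
        set u := ⁅x, a⁆⁻¹
        set w := ⁅y, a⁆⁻¹
        rw [commutatorElement_def, commutatorElement_def, mul_inv_rev, mul_inv_rev]
        calc u * x * (w * y) * (x⁻¹ * u⁻¹) * (y⁻¹ * w⁻¹)
            = u * (x * w) * y * x⁻¹ * (u⁻¹ * y⁻¹) * w⁻¹ := by group
          _ = (u * w) * (x * y * x⁻¹ * y⁻¹) * (u⁻¹ * w⁻¹) := by
            rw [c3.eq, ← c2.inv_left.inv_right.eq]; group
          _ = x * y * x⁻¹ * y⁻¹ := by
            have d1 : Commute (x * y * x⁻¹ * y⁻¹) (u * w) :=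
              (((c1.mul_left c2).mul_left c1.inv_left).mul_left c2.inv_left).mul_right
                (((c3.mul_left c4).mul_left c3.inv_left).mul_left c4.inv_left)
            rw [← d1.eq, ← mul_inv_rev w u, ← c5.eq]; group
      rw [mul_inv_eq_iff_eq_mul] at e
      exact e.symm
    intro k hk
    exact mem_centralizer_singleton_iff.1 (this hk)

theorem not_pow_central {p : ℕ} [Fact p.Prime] [Finite G] {K : Subgroup G} (hK : Cfsg.IsComponent K)
    (n : ℕ) (h : ∀ x ∈ K, ∀ y ∈ K, Commute y (x ^ p ^ n)) : False := by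
  haveI := hK.2.2
  have hq := CfsgLib.Comp.qs_of_surjective hK.2 (QuotientGroup.mk' (center K))
    (QuotientGroup.mk'_surjective _)
  apply CfsgLib.Comp.qs_not_isSolvable hq
  have hp : IsPGroup p (K ⧸ center K) := by
    intro g
    obtain ⟨x, rfl⟩ := QuotientGroup.mk_surjective g
    refine ⟨n, ?_⟩
    rw [← QuotientGroup.mk_pow, QuotientGroup.eq_one_iff, mem_center_iff]
    intro y
    exact Subtype.ext (h x x.2 y y.2)
  haveI := hp.isNilpotent
  infer_instance

end Grp

section Mod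

variable {p : ℕ} {G V : Type*} [Group G] [AddCommGroup V] [Module (ZMod p) V]
  (ρ : Representation (ZMod p) G V)

theorem rho_mul (g h : G) (v : V) : ρ (g * h) v = ρ g (ρ h v) := by simp

/-- Elements fixing every vector of `U`. -/
def fixG (U : Set V) : Subgroup G where
  carrier := {g | ∀ u ∈ U, ρ g u = u}
  mul_mem' := fun {a b} ha hb u hu => by rw [rho_mul, hb u hu, ha u hu]
  one_mem' := fun u _ => by simp
  inv_mem' := fun {a} ha u hu => by
    conv_lhs => rw [← ha u hu]
    simp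

/-- Elements acting trivially modulo `C`. -/
def modG (C : Submodule (ZMod p) V) : Subgroup G where
  carrier := {g | ∀ v, ρ g v - v ∈ C}
  mul_mem' := fun {a b} ha hb v => by
    have := add_mem (ha (ρ b v)) (hb v)
    rwa [sub_add_sub_cancel, ← rho_mul] at this
  one_mem' := fun v => by simp
  inv_mem' := fun {a} ha v => by
    have := neg_mem (ha (ρ a⁻¹ v))
    simpa using this

/-- Vectors fixed by `M`. -/
def fixS (M : Subgroup G) : Submodule (ZMod p) V where
  carrier := {v | ∀ g ∈ M, ρ g v = v}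
  add_mem' := fun {a b} ha hb g hg => by rw [map_add, ha g hg, hb g hg]
  zero_mem' := fun g _ => map_zero _
  smul_mem' := fun c {a} ha g hg => by rw [map_smul, ha g hg]

variable {ρ}

theorem mem_fixG {U : Set V} {g : G} : g ∈ fixG ρ U ↔ ∀ u ∈ U, ρ g u = u := Iff.rfl
theorem mem_modG {C : Submodule (ZMod p) V} {g : G} : g ∈ modG ρ C ↔ ∀ v, ρ g v - v ∈ C := Iff.rfl
theorem mem_fixS {M : Subgroup G} {v : V} : v ∈ fixS ρ M ↔ ∀ g ∈ M, ρ g v = v := Iff.rfl

theorem conj_mem_fixG {U : Set V} {k n : G} (hk : ∀ u ∈ U, ρ k⁻¹ u ∈ U) (hn : n ∈ fixG ρ U) :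
    k * n * k⁻¹ ∈ fixG ρ U := fun u hu => by
  rw [rho_mul, rho_mul, hn _ (hk u hu)]; simp

theorem conj_mem_modG {C : Submodule (ZMod p) V} {k n : G} (hk : ∀ u ∈ C, ρ k u ∈ C)
    (hn : n ∈ modG ρ C) : k * n * k⁻¹ ∈ modG ρ C := fun v => by
  have := hk _ (hn (ρ k⁻¹ v))
  rw [map_sub] at this
  rw [rho_mul, rho_mul]
  simpa using this

theorem fixS_inv {M : Subgroup G} {k : G} (hk : ∀ m ∈ M, k⁻¹ * m * k ∈ M) {u : V}
    (hu : u ∈ fixS ρ M) : ρ k u ∈ fixS ρ M := fun m hm => by
  have := hu _ (hk m hm)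
  rw [← rho_mul]
  conv_rhs => rw [← this, ← rho_mul]
  simp [mul_assoc]

theorem pow_sub_one [Fact p.Prime] (x : Module.End (ZMod p) V) (n : ℕ) :
    (x - 1) ^ p ^ n = x ^ p ^ n - 1 := by
  rcases subsingleton_or_nontrivial V with h | h
  · exact Subsingleton.elim _ _
  · haveI : CharP (Module.End (ZMod p) V) p :=
      charP_of_injective_algebraMap (algebraMap (ZMod p) (Module.End (ZMod p) V)).injective p
    rw [sub_pow_char_pow_of_commute _ _ (Commute.one_right x), one_pow]

theorem pow_eq_one_of_nil [Fact p.Prime] (hρ : Function.Injective ρ) {g : G} {m n : ℕ}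
    (h : (ρ g - 1) ^ m = 0) (hm : m ≤ p ^ n) : g ^ p ^ n = 1 := by
  apply hρ
  rw [map_pow, map_one, ← sub_eq_zero, ← pow_sub_one]
  exact pow_eq_zero_of_le hm h

theorem card_ker_range [Finite V] (f : Module.End (ZMod p) V) :
    Nat.card V = Nat.card (LinearMap.ker f) * Nat.card (LinearMap.range f) := by
  rw [Submodule.card_eq_card_quotient_mul_card (LinearMap.ker f),
    Nat.card_congr f.quotKerEquivRange.toEquiv]

end Mod

end CfsgLib.PGV
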