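import Cfsg.Agent.Lib.PGV.Basic

/-! # The P(G,V)-theorem on an irreducible module: odd characteristic and the reduction to two components -/

set_option autoImplicit false

namespace CfsgLib.PGV

open Subgroup
open scoped commutatorElement

variable {p : ℕ} {G V : Type*} [Group G] [AddCommGroup V] [Module (ZMod p) V]

/-- `V` is a faithful module, irreducible for the component `K` together with the elementary abelian group `A`. -/
structure Setup (ρ : Representation (ZMod p) G V) (K A : Subgroup G) : Prop where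
  inj : Function.Injective ρ
  comp : Cfsg.IsComponent K
  el : Cfsg.IsElementaryAbelian p A
  irr : ∀ U : Submodule (ZMod p) V, (∀ k ∈ K, ∀ u ∈ U, ρ k u ∈ U) → (∀ a ∈ A, ∀ u ∈ U, ρ a u ∈ U) →
    U = ⊥ ∨ U = ⊤

theorem quad_id {R : Type*} [Ring R] {b b' k1 k1' k2 k2' : R} (h0 : b + b' = 2)
    (h1 : k1 * b + b' * k1' = 2) (h2 : k2 * b + b' * k2' = 2)
    (h12 : k1 * k2 * b + b' * k2' * k1' = 2) (hc : k2' * k1' = k1' * k2') :
    2 * ((k1 - 1) * (k2' - 1)) = 0 := by
  linear_combination (norm := noncomm_ring) (k1 - 1) * (h2 - h0) + (h1 - h0) * (k2' - 1) -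
    (h12 - h1 - h2 + h0) - (k1 - 1) * h0 * (k2' - 1) + b' * hc

namespace Setup

variable {ρ : Representation (ZMod p) G V} {K A : Subgroup G} (S : Setup ρ K A)
include S

theorem commA {a b : G} (ha : a ∈ A) (hb : b ∈ A) : Commute a b :=
  congrArg Subtype.val (S.el.1.is_comm.comm ⟨a, ha⟩ ⟨b, hb⟩)

theorem kc_comm {a b : G} (ha : a ∈ A) (hb : b ∈ A) : kc (kc K a) b = kc (kc K b) a := by
  rw [kc_kc, kc_kc, (S.commA ha hb).eq]

theorem conj {a : G} (ha : a ∈ A) : Setup ρ (kc K a) A where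
  inj := S.inj
  comp := comp_kc S.comp a
  el := S.el
  irr := fun U hK hA => S.irr U (fun k hk u hu => by
    have := hA _ (inv_mem ha) _ (hK _ (conj_mem_kc a hk) _ (hA a ha u hu))
    rwa [← rho_mul, ← rho_mul, ← mul_assoc, ← mul_assoc, inv_mul_cancel, one_mul, mul_assoc,
      inv_mul_cancel, mul_one] at this) hA

theorem moves_conj {a t : G} (ha : a ∈ A) (ht : t ∈ A) (h : kc K t ≠ K) : kc (kc K a) t ≠ kc K a := by
  rw [S.kc_comm ha ht]
  exact fun e => h (kc_inj e)

theorem fixes_conj {a t : G} (ha : a ∈ A) (ht : t ∈ A) (h : kc K t = K) : kc (kc K a) t = kc K a := by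
  rw [S.kc_comm ha ht, h]

theorem nontriv : Nontrivial V := by
  by_contra h
  rw [not_nontrivial_iff_subsingleton] at h
  apply CfsgLib.Comp.comp_ne_bot S.comp
  rw [eq_bot_iff]
  intro k _
  exact S.inj (Subsingleton.elim _ _)

variable [Fact p.Prime]

theorem not_cent {a : G} (ha : a ∈ A) (ha1 : a ≠ 1) : ¬ ∀ k ∈ K, Commute k a := by
  intro h
  haveI := S.nontriv
  have hinv : ∀ g, Commute g a → ∀ u ∈ LinearMap.ker (ρ a - 1), ρ g u ∈ LinearMap.ker (ρ a - 1) := by
    intro g hg u hu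
    simp only [LinearMap.mem_ker, LinearMap.sub_apply, Module.End.one_apply, sub_eq_zero] at hu ⊢
    rw [← rho_mul, ← hg.eq, rho_mul, hu]
  rcases S.irr _ (fun k hk => hinv k (h k hk)) (fun c hc => hinv c (S.commA hc ha)) with h1 | h1
  · have hi : Function.Injective ⇑(ρ a - 1) := LinearMap.ker_eq_bot.1 h1
    have h2 := pow_sub_one (ρ a) 1
    rw [pow_one, ← map_pow, S.el.2 a ha, map_one, sub_self] at h2
    have h3 : Function.Injective ⇑((ρ a - 1) ^ p) := by
      rw [Module.End.coe_pow]; exact hi.iterate p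
    rw [h2] at h3
    obtain ⟨v, hv⟩ := exists_ne (0 : V)
    exact hv (h3 (by simp))
  · apply ha1
    apply S.inj
    rw [map_one, ← sub_eq_zero]
    exact LinearMap.ker_eq_top.1 h1

variable [Finite G]

theorem not_nil (h : ∀ k ∈ K, (ρ k - 1) ^ 3 = 0) : False := by
  apply not_pow_central (p := p) S.comp 2
  intro x hx y _
  have hp : 3 ≤ p ^ 2 := by have := (Fact.out : p.Prime).two_le; nlinarith
  rw [pow_eq_one_of_nil S.inj (h x hx) hp]
  exact Commute.one_right y

/-- The imprimitive case is impossible. -/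
theorem imprim {M : Subgroup G} (hKM : K ≤ M) {b : G} (hb : b ∈ A) (hb1 : b ≠ 1)
    (hbM : ∀ m ∈ M, b * m * b⁻¹ ∈ M) (hq : ∀ a ∈ A, ∀ v, ρ a (ρ b v - v) = ρ b v - v)
    {a : G} (ha : a ∈ A) (haM : ∀ m ∈ M, a * m * a⁻¹ ∈ modG ρ (fixS ρ M)) : False := by
  set V₁ := Submodule.span (ZMod p) {u | ∃ m ∈ M, ∃ v, u = ρ m v - v} with hV₁
  have hinv : ∀ (g : G) (C : Submodule (ZMod p) V), (∀ m ∈ M, ∀ v, ρ (g * m * g⁻¹) v - v ∈ C) →
      ∀ u ∈ V₁, ρ g u ∈ C := by
    intro g C hg u hu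
    have : V₁ ≤ C.comap (ρ g) := by
      rw [hV₁, Submodule.span_le]
      rintro _ ⟨m, hm, v, rfl⟩
      have := hg m hm (ρ g v)
      simpa [map_sub] using this
    exact this hu
  have hgen : ∀ m ∈ M, ∀ v, ρ m v - v ∈ V₁ := fun m hm v => Submodule.subset_span ⟨m, hm, v, rfl⟩
  have hM : ∀ g ∈ M, ∀ u ∈ V₁, ρ g u ∈ V₁ := fun g hg =>
    hinv g V₁ fun m hm => hgen _ (mul_mem (mul_mem hg hm) (inv_mem hg))
  let N : Subgroup G :=
    { carrier := {g | ∀ u ∈ V₁, ρ g u - u ∈ fixS ρ M ⊓ V₁}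
      mul_mem' := fun {x y} hx hy u hu => by
        have h1 : ρ y u ∈ V₁ := by simpa using add_mem (hy u hu).2 hu
        have := add_mem (hx _ h1) (hy u hu)
        rwa [sub_add_sub_cancel, ← rho_mul] at this
      one_mem' := fun u _ => by simp
      inv_mem' := fun {x} hx => by
        have key : ∀ n : ℕ, ∀ u ∈ V₁, ρ (x ^ n) u - u ∈ fixS ρ M ⊓ V₁ := by
          intro n
          induction n with
          | zero => intro u _; simp
          | succ n ih =>
            intro u hu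
            have h1 : ρ x u ∈ V₁ := by simpa using add_mem (hx u hu).2 hu
            have := add_mem (ih _ h1) (hx u hu)
            rwa [sub_add_sub_cancel, ← rho_mul, ← pow_succ] at this
        have e : x⁻¹ = x ^ (orderOf x - 1) := by
          rw [eq_comm, ← mul_eq_one_iff_eq_inv, ← pow_succ, Nat.sub_add_cancel (orderOf_pos x),
            pow_orderOf_eq_one]
        rw [e]; exact key _ }
  have hbN : b ∈ N := by
    intro u hu
    have h1 : ρ b u - u ∈ V₁ := sub_mem (hinv b V₁ (fun m hm => hgen _ (hbM m hm)) u hu) hu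
    refine ⟨?_, h1⟩
    rw [← hq a ha u]
    exact hinv a _ (fun m hm => haM m hm) _ h1
  have hKN : K ≤ N := by
    refine le_of_conj S.comp ?_ hbN (S.not_cent hb hb1)
    intro k hk n hn u hu
    have h1 := hn _ (hM _ (inv_mem (hKM hk)) u hu)
    have h2 := h1.1 k (hKM hk)
    rw [map_sub] at h2
    rw [rho_mul, rho_mul]
    have h3 : ρ k (ρ k⁻¹ u) = u := by simp
    rw [h3] at h2
    rw [h2]; exact h1
  apply S.not_nil
  intro k hk
  ext v
  have h1 := (hKN hk _ (hgen k (hKM hk) v)).1 k (hKM hk)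
  simp only [pow_succ', pow_zero, mul_one, Module.End.mul_apply, LinearMap.sub_apply,
    Module.End.one_apply, LinearMap.zero_apply]
  rw [h1, sub_self]

omit [Finite G] in
theorem quad_pair (hp : p ≠ 2) {b : G} (hq : ∀ v, ρ b (ρ b v - v) = ρ b v - v) {x y : G}
    (h1 : Commute y ⁅x, b⁆) (h2 : Commute ⁅x, b⁆ ⁅y, b⁆) :
    (ρ ⁅x, b⁆ - 1) * (ρ ⁅y, b⁆⁻¹ - 1) = 0 := by
  have q0 : ρ b + ρ b⁻¹ = 2 := by
    ext v
    have := hq (ρ b⁻¹ v)
    simp only [Representation.self_inv_apply, map_sub] at this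
    simp only [LinearMap.add_apply, Module.End.ofNat_apply]
    rw [two_nsmul]
    linear_combination (norm := abel) this
  have q : ∀ g, ρ (g * b * g⁻¹) + ρ (g * b⁻¹ * g⁻¹) = 2 := by
    intro g
    have e : ρ g * ρ g⁻¹ = 1 := by rw [← map_mul]; simp
    simp only [map_mul]
    rw [← add_mul, ← mul_add, q0, ← one_add_one_eq_two, mul_add, add_mul, mul_one, e]
  have key := quad_id (b := ρ b) (b' := ρ b⁻¹) (k1 := ρ ⁅x, b⁆) (k1' := ρ ⁅x, b⁆⁻¹) (k2 := ρ ⁅y, b⁆)
    (k2' := ρ ⁅y, b⁆⁻¹) q0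
    (by rw [← q x, ← map_mul, ← map_mul]; congr 2 <;> simp [commutatorElement_def, mul_assoc])
    (by rw [← q y, ← map_mul, ← map_mul]; congr 2 <;> simp [commutatorElement_def, mul_assoc])
    (by
      have e : ⁅x, b⁆ * ⁅y, b⁆ * b = y * x * b * (y * x)⁻¹ := by
        calc ⁅x, b⁆ * ⁅y, b⁆ * b = ⁅x, b⁆ * y * b * y⁻¹ := by simp [commutatorElement_def, mul_assoc]
          _ = _ := by rw [← h1.eq]; simp [commutatorElement_def, mul_assoc]
      rw [← q (y * x), ← map_mul, ← map_mul, ← map_mul, ← map_mul, e]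
      congr 2
      have := congrArg (·⁻¹) e
      simp only [mul_inv_rev, inv_inv] at this
      simp only [mul_inv_rev, ← mul_assoc] at this ⊢
      exact this)
    (by rw [← map_mul, ← map_mul, h2.inv_left.inv_right.eq])
  have h2' : (2 : ZMod p) ≠ 0 := by
    intro h
    have : (p : ℕ) ∣ 2 := (ZMod.natCast_eq_zero_iff 2 p).1 (by exact_mod_cast h)
    exact hp ((Nat.prime_dvd_prime_iff_eq Fact.out Nat.prime_two).1 this)
  rw [two_mul, ← two_smul (ZMod p)] at key
  exact (smul_eq_zero.1 key).resolve_left h2'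

theorem fixes_of_odd (hp : p ≠ 2) {b : G} (hq : ∀ v, ρ b (ρ b v - v) = ρ b v - v) : kc K b = K := by
  by_contra hne
  apply not_pow_central (p := p) S.comp 1
  intro x hx y hy
  have c1 : ∀ z ∈ K, Commute z (b * x⁻¹ * b⁻¹) := fun z hz =>
    comm_of_ne S.comp (comp_kc S.comp b) (Ne.symm hne) hz (conj_mem_kc b (inv_mem hx))
  have e : ⁅x, b⁆ = x * (b * x⁻¹ * b⁻¹) := by simp [commutatorElement_def, mul_assoc]
  have h1 := S.quad_pair hp hq (x := x) (y := x) (e ▸ (Commute.refl x).mul_right (c1 x hx))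
    (Commute.refl _)
  have h2 : (ρ ⁅x, b⁆ - 1) ^ 2 = 0 := by
    have e' : ρ ⁅x, b⁆⁻¹ * ρ ⁅x, b⁆ = 1 := by rw [← map_mul, inv_mul_cancel, map_one]
    linear_combination (norm := noncomm_ring) - h1 * ρ ⁅x, b⁆ + (ρ ⁅x, b⁆ - 1) * e'
  have h3 := pow_eq_one_of_nil S.inj h2 (n := 1) (by simpa using (Fact.out : p.Prime).two_le)
  rw [e, (c1 x hx).mul_pow, mul_eq_one_iff_eq_inv] at h3
  rw [h3]
  exact ((c1 y hy).pow_right _).inv_right

theorem odd (hp : p ≠ 2) {b : G} (hb : b ∈ A) (hb1 : b ≠ 1)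
    (hq : ∀ a ∈ A, ∀ v, ρ a (ρ b v - v) = ρ b v - v) {a : G} (ha : a ∈ A) : kc K a = K := by
  by_contra hne
  have S' := S.conj ha
  have f1 := S.fixes_of_odd hp (hq b hb)
  have f2 := S'.fixes_of_odd hp (hq b hb)
  have hm : ∀ {L : Subgroup G}, kc L b = L → ∀ x ∈ L, ⁅x, b⁆ ∈ L := fun h x hx => by
    have := mul_mem hx (conj_mem_of_kc h (inv_mem hx))
    simpa [commutatorElement_def, mul_assoc] using this
  have hc : ∀ x ∈ K, ∀ y ∈ kc K a, Commute x y := fun x hx y hy =>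
    comm_of_ne S.comp S'.comp (Ne.symm hne) hx hy
  refine S.imprim le_rfl hb hb1 (fun m => conj_mem_of_kc f1) hq ha ?_
  have : kc K a ≤ modG ρ (fixS ρ K) := by
    refine le_of_comm_elt S'.comp f2 (S'.not_cent hb hb1) ?_
    intro y hy
    rw [← inv_mem_iff]
    intro v
    have : K ≤ fixG ρ {ρ ⁅y, b⁆⁻¹ v - v} := by
      refine le_of_comm_elt S.comp f1 (S.not_cent hb hb1) ?_
      intro x hx u hu
      rw [Set.mem_singleton_iff.1 hu]
      have := S.quad_pair hp (hq b hb) (hc _ (hm f1 x hx) y hy).symm (hc _ (hm f1 x hx) _ (hm f2 y hy))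
      have := LinearMap.congr_fun this v
      simpa [sub_eq_zero, -commutatorElement_inv] using this
    exact fun k hk => this hk _ rfl
  exact fun m hm => this (conj_mem_kc a hm)

end Setup

end CfsgLib.PGV
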