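import Cfsg.Agent.Lib.PGV.Core1

/-! # The P(G,V)-theorem on an irreducible module in characteristic two: the diagonal subgroup -/

set_option autoImplicit false

namespace CfsgLib.PGV

open Subgroup
open scoped commutatorElement

variable {G V : Type*} [Group G] [AddCommGroup V] [Module (ZMod 2) V]

theorem add_self2 (V : Type*) [AddCommGroup V] [Module (ZMod 2) V] (v : V) : v + v = 0 := by
  rw [← two_smul (ZMod 2) v]
  exact (show (2 : ZMod 2) = 0 from rfl) ▸ zero_smul _ _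

theorem eq_of_card_le_two {α : Type*} [Finite α] (h : Nat.card α ≤ 2) {x y z : α} (hx : x ≠ z)
    (hy : y ≠ z) : x = y := by
  classical
  by_contra hxy
  haveI := Fintype.ofFinite α
  have h1 : ({x, y, z} : Finset α).card = 3 := Finset.card_eq_three.2 ⟨x, y, z, hxy, hx, hy, rfl⟩
  have h2 := Finset.card_le_univ ({x, y, z} : Finset α)
  rw [← Nat.card_eq_fintype_card] at h2
  omega

namespace Setup

variable {ρ : Representation (ZMod 2) G V} {K A : Subgroup G} (S : Setup ρ K A)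
include S

theorem sq {a : G} (ha : a ∈ A) : a * a = 1 := by rw [← pow_two]; exact S.el.2 a ha

theorem inv_eq {a : G} (ha : a ∈ A) : a⁻¹ = a := inv_eq_of_mul_eq_one_right (S.sq ha)

theorem kc_kc_self {a : G} (ha : a ∈ A) (L : Subgroup G) : kc (kc L a) a = L := by
  rw [kc_kc, S.sq ha, kc_one]

theorem self_fix {t : G} (ht : t ∈ A) (v : V) : ρ t (ρ t v - v) = ρ t v - v := by
  rw [map_sub, ← rho_mul, S.sq ht, map_one, Module.End.one_apply]
  linear_combination (norm := abel) add_self2 V v - add_self2 V (ρ t v)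

theorem cK {t : G} (hm : kc K t ≠ K) {x y : G} (hx : x ∈ K) (hy : y ∈ K) :
    Commute x (t * y * t⁻¹) :=
  comm_of_ne S.comp (comp_kc S.comp t) (Ne.symm hm) hx (conj_mem_kc t hy)

theorem theta_comm {t : G} (ht : t ∈ A) (hm : kc K t ≠ K) {x : G} (hx : x ∈ K) :
    Commute (x * (t * x * t⁻¹)) t := by
  have h := (S.cK hm hx hx).eq
  rw [S.inv_eq ht] at h ⊢
  calc x * (t * x * t) * t = x * t * x * (t * t) := by simp only [mul_assoc]
    _ = (t * t) * x * t * x := by rw [S.sq ht]; simp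
    _ = t * ((t * x * t) * x) := by simp only [mul_assoc]
    _ = _ := by rw [h]

theorem theta_mul {t : G} (hm : kc K t ≠ K) {x y : G} (hx : x ∈ K) (hy : y ∈ K) :
    x * y * (t * (x * y) * t⁻¹) = x * (t * x * t⁻¹) * (y * (t * y * t⁻¹)) := by
  calc x * y * (t * (x * y) * t⁻¹) = x * (y * (t * x * t⁻¹)) * (t * y * t⁻¹) := by group
    _ = _ := by rw [(S.cK hm hy hx).eq]; group

theorem theta_inv {t : G} (hm : kc K t ≠ K) {x : G} (hx : x ∈ K) :
    x⁻¹ * (t * x⁻¹ * t⁻¹) = (x * (t * x * t⁻¹))⁻¹ := by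
  rw [eq_comm, inv_eq_iff_mul_eq_one, ← S.theta_mul hm hx (inv_mem hx)]; simp

/-- The diagonal subgroup centralizes `[V, t]`. -/
theorem dia [Finite V] {t : G} (ht : t ∈ A) (hm : kc K t ≠ K)
    (hd : (∃ c ∈ A, c ≠ 1 ∧ c ≠ t ∧ ∀ v, ρ c (ρ t v - v) = ρ t v - v) ∨
      Nat.card (LinearMap.range (ρ t - 1)) ≤ 2) {x : G} (hx : x ∈ K) (v : V) :
    ρ (x * (t * x * t⁻¹)) (ρ t v - v) = ρ t v - v := by
  set U : Set V := {u | ∃ v, u = ρ t v - v} with hU
  have hUinv : ∀ g, Commute g t → ∀ u ∈ U, ρ g u ∈ U := by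
    rintro g hg _ ⟨v, rfl⟩
    exact ⟨ρ g v, by rw [map_sub, ← rho_mul, ← rho_mul, hg.eq]⟩
  rcases hd with ⟨c, hc, hc1, hct, hcv⟩ | hd
  swap
  · obtain ⟨w, hw⟩ := hUinv _ (S.theta_comm ht hm hx) _ ⟨v, rfl⟩
    by_cases h0 : ρ t v - v = 0
    · rw [h0, map_zero]
    have h1 : ρ t w - w ≠ 0 := by
      rw [← hw]
      intro h
      apply h0
      have := congrArg (ρ (x * (t * x * t⁻¹))⁻¹) h
      simpa only [Representation.inv_self_apply, map_zero] using this
    have := eq_of_card_le_two hd (x := ⟨ρ t w - w, w, rfl⟩) (y := ⟨ρ t v - v, v, rfl⟩) (z := 0)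
      (fun h => h1 (congrArg Subtype.val h)) (fun h => h0 (congrArg Subtype.val h))
    rw [hw]
    exact congrArg Subtype.val this
  have hN : ∀ g, Commute g t → ∀ n ∈ fixG ρ U, g * n * g⁻¹ ∈ fixG ρ U := fun g hg n hn =>
    conj_mem_fixG (hUinv _ hg.inv_left) hn
  let N' : Subgroup G :=
    { carrier := {x | x ∈ K ∧ x * (t * x * t⁻¹) ∈ fixG ρ U}
      mul_mem' := fun {x y} hx hy => ⟨mul_mem hx.1 hy.1, by
        rw [S.theta_mul hm hx.1 hy.1]; exact mul_mem hx.2 hy.2⟩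
      one_mem' := ⟨one_mem _, by simpa using one_mem (fixG ρ U)⟩
      inv_mem' := fun {x} hx => ⟨inv_mem hx.1, by rw [S.theta_inv hm hx.1]; exact inv_mem hx.2⟩ }
  suffices h : K ≤ N' from (h hx).2 _ ⟨v, rfl⟩
  have htN : t ∈ fixG ρ U := by rintro _ ⟨v, rfl⟩; exact S.self_fix ht v
  have hcN : c ∈ fixG ρ U := by rintro _ ⟨v, rfl⟩; exact hcv v
  have key : ∀ c ∈ A, c ≠ 1 → c ∈ fixG ρ U → kc K c = K → K ≤ N' := by
    intro c hc hc1 hcN hcK
    refine le_of_comm_elt S.comp hcK (S.not_cent hc hc1) fun x hx => ?_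
    have h1 : c * x⁻¹ * c⁻¹ ∈ K := conj_mem_of_kc hcK (inv_mem hx)
    have e : ⁅x, c⁆ = x * (c * x⁻¹ * c⁻¹) := by simp [commutatorElement_def, mul_assoc]
    refine ⟨e ▸ mul_mem hx h1, ?_⟩
    rw [e, S.theta_mul hm hx h1]
    have h2 := mul_mem (hN _ (S.theta_comm ht hm hx) c hcN) (inv_mem hcN)
    rw [← S.theta_inv hm hx] at h2
    convert h2 using 1
    have h3 := (S.commA hc ht).eq
    calc x * (t * x * t⁻¹) * (c * x⁻¹ * c⁻¹ * (t * (c * x⁻¹ * c⁻¹) * t⁻¹))
        = x * (t * x * t⁻¹) * (c * x⁻¹ * c⁻¹ * ((t * c) * x⁻¹ * (t * c)⁻¹)) := by group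
      _ = _ := by rw [← h3]; group
  by_cases h1 : kc K c = K
  · exact key c hc hc1 hcN h1
  by_cases h2 : kc K (t * c) = K
  · refine key _ (mul_mem ht hc) (fun h => hct ?_) (mul_mem htN hcN) h2
    rw [mul_eq_one_iff_eq_inv', S.inv_eq ht] at h
    exact h
  -- `c` moves the pair `{K, K^t}`
  have n1 : kc K c ≠ kc K t := fun h => h2 (by rw [← kc_kc, h, S.kc_kc_self ht])
  have n2 : kc (kc K t) c ≠ K := by rw [kc_kc, (S.commA hc ht).eq]; exact h2
  have n3 : kc (kc K t) c ≠ kc K t := S.moves_conj ht hc h1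
  have hw : ∀ x ∈ K, ∀ y ∈ K, Commute (y * (t * y * t⁻¹)) (c * (x * (t * x * t⁻¹)) * c⁻¹) := by
    intro x hx y hy
    have e : c * (x * (t * x * t⁻¹)) * c⁻¹ = (c * x * c⁻¹) * (c * (t * x * t⁻¹) * c⁻¹) := by group
    have a1 := conj_mem_kc c hx
    have a2 := conj_mem_kc c (conj_mem_kc t hx)
    have a3 := conj_mem_kc t hy
    have c0 := S.comp
    have c1 := comp_kc c0 t
    rw [e]
    exact ((comm_of_ne c0 (comp_kc c0 c) (Ne.symm h1) hy a1).mul_right
      (comm_of_ne c0 (comp_kc c1 c) n2.symm hy a2)).mul_left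
      ((comm_of_ne c1 (comp_kc c0 c) n1.symm a3 a1).mul_right
      (comm_of_ne c1 (comp_kc c1 c) n3.symm a3 a2))
  refine le_of_comm S.comp fun y hy x hx => ?_
  have m : ⁅y, x⁆ ∈ K := mul_mem (mul_mem (mul_mem hy hx) (inv_mem hy)) (inv_mem hx)
  refine ⟨m, ?_⟩
  rw [commutatorElement_def, S.theta_mul hm (mul_mem (mul_mem hy hx) (inv_mem hy)) (inv_mem hx),
    S.theta_mul hm (mul_mem hy hx) (inv_mem hy), S.theta_mul hm hy hx, S.theta_inv hm hx,
    S.theta_inv hm hy]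
  have h3 := mul_mem (hN _ (S.theta_comm ht hm hx) c hcN) (inv_mem hcN)
  have h4 := mul_mem (hN _ (S.theta_comm ht hm hy) _ h3) (inv_mem h3)
  have h5 := (hw x hx y hy).inv_left.inv_right.eq
  set X := x * (t * x * t⁻¹)
  set Y := y * (t * y * t⁻¹)
  convert h4 using 1
  calc Y * X * Y⁻¹ * X⁻¹ = Y * X * (Y⁻¹ * (c * X * c⁻¹)⁻¹) * (c * X * c⁻¹) * X⁻¹ := by group
    _ = _ := by rw [h5]; group

/-- There are at most two conjugates of `K` under `A`. -/
theorem two [Finite G] {b : G} (hb : b ∈ A) (hb1 : b ≠ 1)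
    (hq : ∀ a ∈ A, ∀ v, ρ a (ρ b v - v) = ρ b v - v) {t : G} (ht : t ∈ A) (hm : kc K t ≠ K)
    (hbt : b = t ∨ kc K b = K)
    (hd : ∀ a ∈ A, ∀ x ∈ kc K a, ∀ v, ρ (x * (t * x * t⁻¹)) (ρ t v - v) = ρ t v - v)
    {a : G} (ha : a ∈ A) : kc K a = K ∨ kc K a = kc K t := by
  by_contra hcon
  push Not at hcon
  obtain ⟨h1, h2⟩ := hcon
  set M := K ⊔ kc K t with hM
  have hnorm : ∀ g : G, kc K g ≤ M → kc (kc K t) g ≤ M → ∀ m ∈ M, g * m * g⁻¹ ∈ M := by
    intro g g1 g2 m hm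
    have : M ≤ M.comap (MulAut.conj g).toMonoidHom :=
      sup_le (fun x hx => g1 (conj_mem_kc g hx)) (fun x hx => g2 (conj_mem_kc g hx))
    exact this hm
  have htM : ∀ m ∈ M, t * m * t⁻¹ ∈ M :=
    hnorm t le_sup_right (by rw [S.kc_kc_self ht]; exact le_sup_left)
  have hbM : ∀ m ∈ M, b * m * b⁻¹ ∈ M := by
    rcases hbt with rfl | h
    · exact htM
    · exact hnorm b (by rw [h]; exact le_sup_left) (by rw [S.fixes_conj ht hb h]; exact le_sup_right)
  have S' := S.conj ha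
  have hm' := S.moves_conj ha ht hm
  have n1 : kc (kc K a) t ≠ K := fun h => h2 (by rw [← S.kc_kc_self ht (kc K a), h])
  have hcM : ∀ y ∈ kc K a, ∀ m ∈ M, Commute m y := by
    intro y hy m hm
    have : M ≤ centralizer {y} := sup_le
      (fun x hx => mem_centralizer_singleton_iff.2 (comm_of_ne S.comp S'.comp (Ne.symm h1) hx hy))
      (fun x hx => mem_centralizer_singleton_iff.2
        (comm_of_ne (comp_kc S.comp t) S'.comp (Ne.symm h2) hx hy))
    exact mem_centralizer_singleton_iff.1 (this hm)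
  have hD : ∀ y ∈ kc K a, y * (t * y * t⁻¹) ∈ modG ρ (fixS ρ M) := by
    intro y hy v
    set d := y * (t * y * t⁻¹) with hdd
    have hdt : Commute d t := S'.theta_comm ht hm' hy
    set U : Set V := {u | ∃ v, u = ρ d v - v} with hU
    have htU : t ∈ fixG ρ U := by
      rintro _ ⟨v, rfl⟩
      have := hd a ha y hy v
      rw [map_sub, ← rho_mul, hdt.eq, rho_mul] at this
      rw [map_sub]
      linear_combination (norm := abel) this
    have hKU : K ≤ fixG ρ U := by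
      refine le_of_conj S.comp (fun k hk n hn => conj_mem_fixG ?_ hn) htU
        (S.not_cent ht (by rintro rfl; exact hm (kc_one K)))
      rintro _ ⟨v, rfl⟩
      have : Commute k⁻¹ d := ((comm_of_ne S.comp S'.comp (Ne.symm h1) hk hy).mul_right
        (comm_of_ne S.comp (comp_kc S'.comp t) n1.symm hk (conj_mem_kc t hy))).inv_left
      exact ⟨ρ k⁻¹ v, by rw [map_sub, ← rho_mul, ← rho_mul, this.eq]⟩
    have hMU : M ≤ fixG ρ U := sup_le hKU (by
      rintro _ ⟨x, hx, rfl⟩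
      exact mul_mem (mul_mem htU (hKU hx)) (inv_mem htU))
    exact fun m hm => hMU hm _ ⟨v, rfl⟩
  have hK' : kc K a ≤ modG ρ (fixS ρ M) := by
    refine le_of_comm S'.comp fun y' hy' y hy => ?_
    have h3 := mul_mem (conj_mem_modG (k := y') (fun u hu => fixS_inv (fun m hm => by
      rw [mul_assoc, (hcM y' hy' m hm).eq, inv_mul_cancel_left]; exact hm) hu) (hD y hy))
      (inv_mem (hD y hy))
    convert h3 using 1
    have h4 := (S'.cK hm' hy' hy).inv_left.eq
    calc ⁅y', y⁆ = y' * y * (y'⁻¹ * (t * y * t⁻¹)) * (t * y * t⁻¹)⁻¹ * y⁻¹ := by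
          rw [commutatorElement_def]; group
      _ = _ := by rw [h4]; group
  have hK'' : kc (kc K a) t ≤ modG ρ (fixS ρ M) := by
    rintro _ ⟨y, hy, rfl⟩
    refine conj_mem_modG (k := t) (fun u hu => fixS_inv (fun m hm => ?_) hu) (hK' hy)
    have := htM m hm
    rwa [S.inv_eq ht] at this ⊢
  refine S.imprim (le_sup_left : K ≤ M) hb hb1 hbM hq ha fun m hm => ?_
  have : M ≤ (modG ρ (fixS ρ M)).comap (MulAut.conj a).toMonoidHom :=
    sup_le (fun x hx => hK' (conj_mem_kc a hx))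
      (fun x hx => hK'' (S.kc_comm ha ht ▸ conj_mem_kc a hx))
  exact this hm

end Setup

end CfsgLib.PGV
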