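import Cfsg.Agent.Lib.PGV.Core2
import Cfsg.Agent.Lib.PGV.Alg
import Cfsg.Agent.Lib.Char.Burnside

/-! # The P(G,V)-theorem on an irreducible module: the case of two components -/

set_option autoImplicit false

namespace CfsgLib.PGV

open Subgroup
open scoped commutatorElement

theorem trace_id {R : Type*} [Ring R] (h2 : ∀ z : R, z + z = 0) {x x' t : R} (hx : x' * x = 1)
    (hx' : x * x' = 1) (ht : t * t = 1) (h1 : x * (t * x * t) * (t - 1) = t - 1)
    (h1' : (t - 1) * ((t * x * t) * x) = t - 1) :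
    t * x * (t - 1) = x' * (t - 1) ∧ (t - 1) * x * (t - 1) = (x + x') * (t - 1) ∧
      (x + x') * t = t * (x + x') := by
  have a1 : t * (t - 1) = t - 1 := by
    linear_combination (norm := noncomm_ring) ht - h2 (t - 1)
  have a2 : (t - 1) * t = t - 1 := by
    linear_combination (norm := noncomm_ring) ht - h2 (t - 1)
  have A : t * x * (t - 1) = x' * (t - 1) := by
    linear_combination (norm := noncomm_ring) x' * h1 - hx * (t * x * t * (t - 1)) - t * x * a1
  have A' : (t - 1) * x * t = (t - 1) * x' := by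
    linear_combination (norm := noncomm_ring) h1' * x' - (t - 1) * t * x * t * hx' - a2 * x * t
  have B : (t - 1) * x * (t - 1) = (x + x') * (t - 1) := by
    linear_combination (norm := noncomm_ring) A - h2 (x * (t - 1))
  have B' : (t - 1) * x * (t - 1) = (t - 1) * (x + x') := by
    linear_combination (norm := noncomm_ring) A' - h2 ((t - 1) * x)
  refine ⟨A, B, ?_⟩
  linear_combination (norm := noncomm_ring) B' - B

variable {G V : Type*} [Group G] [AddCommGroup V] [Module (ZMod 2) V]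

/-- The additive span of the image of `K`. -/
def spanR (ρ : Representation (ZMod 2) G V) (K : Subgroup G) : Subring (Module.End (ZMod 2) V) where
  carrier := AddSubgroup.closure {z | ∃ k ∈ K, z = ρ k}
  add_mem' := fun ha hb => add_mem ha hb
  zero_mem' := zero_mem _
  neg_mem' := fun ha => neg_mem ha
  one_mem' := AddSubgroup.subset_closure ⟨1, one_mem _, (map_one ρ).symm⟩
  mul_mem' := fun {a b} ha hb => by
    induction ha, hb using AddSubgroup.closure_induction₂ with
    | mem x y hx hy =>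
      obtain ⟨k, hk, rfl⟩ := hx
      obtain ⟨l, hl, rfl⟩ := hy
      exact AddSubgroup.subset_closure ⟨k * l, mul_mem hk hl, (map_mul ρ k l).symm⟩
    | zero_left x _ => rw [zero_mul]; exact zero_mem _
    | zero_right x _ => rw [mul_zero]; exact zero_mem _
    | add_left x y z _ _ _ h1 h2 => rw [add_mul]; exact add_mem h1 h2
    | add_right x y z _ _ _ h1 h2 => rw [mul_add]; exact add_mem h1 h2
    | neg_left x y _ _ h => rw [neg_mul]; exact neg_mem h
    | neg_right x y _ _ h => rw [mul_neg]; exact neg_mem h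

theorem mem_spanR (ρ : Representation (ZMod 2) G V) {K : Subgroup G} {k : G} (hk : k ∈ K) :
    ρ k ∈ spanR ρ K := AddSubgroup.subset_closure ⟨k, hk, rfl⟩

theorem spanR_ind {ρ : Representation (ZMod 2) G V} {K : Subgroup G} (P : spanR ρ K → Prop)
    (h1 : ∀ k (hk : k ∈ K), P ⟨ρ k, mem_spanR ρ hk⟩) (h0 : P 0) (hadd : ∀ a b, P a → P b → P (a + b))
    (z : spanR ρ K) : P z := by
  obtain ⟨z, hz⟩ := z
  induction hz using AddSubgroup.closure_induction with
  | mem x hx => obtain ⟨k, hk, rfl⟩ := hx; exact h1 k hk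
  | zero => exact h0
  | add x y hx hy a b => exact hadd ⟨x, hx⟩ ⟨y, hy⟩ a b
  | neg x hx a =>
    have : -x = x := by rw [neg_eq_iff_add_eq_zero]; exact add_self2 _ x
    simpa only [this] using a

theorem spanR_comm {ρ : Representation (ZMod 2) G V} {K : Subgroup G} {s : Module.End (ZMod 2) V}
    (hs : ∀ k ∈ K, Commute s (ρ k)) {z : Module.End (ZMod 2) V} (hz : z ∈ spanR ρ K) : Commute s z :=
  spanR_ind (fun z => Commute s z.1) hs (Commute.zero_right s) (fun _ _ a b => a.add_right b) ⟨z, hz⟩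

theorem spanR_conj {ρ : Representation (ZMod 2) G V} {K : Subgroup G} {c : G} (hc : kc K c = K)
    {z : Module.End (ZMod 2) V} (hz : z ∈ spanR ρ K) : ρ c * z * ρ c⁻¹ ∈ spanR ρ K :=
  spanR_ind (fun z => ρ c * z.1 * ρ c⁻¹ ∈ spanR ρ K)
    (fun k hk => by simpa using mem_spanR ρ (conj_mem_of_kc hc hk)) (by simp)
    (fun a b ha hb => by simpa [mul_add, add_mul] using add_mem ha hb) ⟨z, hz⟩

/-- The scalars: elements of the span commuting with `K` and `A`. -/
def scal (ρ : Representation (ZMod 2) G V) (K A : Subgroup G) : Subring (Module.End (ZMod 2) V) where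
  carrier := {z | z ∈ spanR ρ K ∧ (∀ a ∈ A, Commute z (ρ a)) ∧ ∀ k ∈ K, Commute z (ρ k)}
  add_mem' := fun ha hb => ⟨add_mem ha.1 hb.1, fun a h => (ha.2.1 a h).add_left (hb.2.1 a h),
    fun a h => (ha.2.2 a h).add_left (hb.2.2 a h)⟩
  zero_mem' := ⟨zero_mem _, fun _ _ => Commute.zero_left _, fun _ _ => Commute.zero_left _⟩
  neg_mem' := fun ha => ⟨neg_mem ha.1, fun a h => (ha.2.1 a h).neg_left, fun a h => (ha.2.2 a h).neg_left⟩
  one_mem' := ⟨one_mem _, fun _ _ => Commute.one_left _, fun _ _ => Commute.one_left _⟩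
  mul_mem' := fun ha hb => ⟨mul_mem ha.1 hb.1, fun a h => (ha.2.1 a h).mul_left (hb.2.1 a h),
    fun a h => (ha.2.2 a h).mul_left (hb.2.2 a h)⟩

instance scalCommRing (ρ : Representation (ZMod 2) G V) (K A : Subgroup G) : CommRing (scal ρ K A) :=
  { (inferInstance : Ring (scal ρ K A)) with
    mul_comm := fun a b => Subtype.ext (spanR_comm a.2.2.2 b.2.1).eq }

instance scalAlgebra (ρ : Representation (ZMod 2) G V) (K A : Subgroup G) :
    Algebra (scal ρ K A) (spanR ρ K) :=
  RingHom.toAlgebra' (Subring.inclusion (fun _ h => h.1 : scal ρ K A ≤ spanR ρ K))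
    (fun c x => Subtype.ext (spanR_comm c.2.2.2 x.2).eq)

theorem coe_smul' {ρ : Representation (ZMod 2) G V} {K A : Subgroup G} (s : scal ρ K A) (z : spanR ρ K) :
    ((s • z : spanR ρ K) : Module.End (ZMod 2) V) = s.1 * z.1 := rfl

namespace Setup

variable {ρ : Representation (ZMod 2) G V} {K A : Subgroup G} (S : Setup ρ K A)
include S

theorem scal_inj {s : Module.End (ZMod 2) V} (hs : s ∈ scal ρ K A) (h0 : s ≠ 0) :
    Function.Injective s := by
  have hinv : ∀ g, Commute s (ρ g) → ∀ u ∈ LinearMap.ker s, ρ g u ∈ LinearMap.ker s := by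
    intro g hg u hu
    rw [LinearMap.mem_ker] at hu ⊢
    rw [← Module.End.mul_apply, hg.eq, Module.End.mul_apply, hu, map_zero]
  rcases S.irr _ (fun k hk => hinv k (hs.2.2 k hk)) (fun a ha => hinv a (hs.2.1 a ha)) with h | h
  · exact LinearMap.ker_eq_bot.1 h
  · exact absurd (LinearMap.ker_eq_top.1 h) h0

theorem scal_domain : IsDomain (scal ρ K A) := by
  haveI := S.nontriv
  haveI : NoZeroDivisors (scal ρ K A) := ⟨fun {a b} h => by
    by_cases ha : a = 0
    · exact Or.inl ha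
    · right
      apply Subtype.ext
      ext v
      apply S.scal_inj a.2 (fun h => ha (Subtype.ext h))
      have := LinearMap.congr_fun (congrArg Subtype.val h) v
      simpa using this⟩
  exact NoZeroDivisors.to_isDomain _

theorem trace_facts {s : G} (hs : s ∈ A) (hm : kc K s ≠ K) {x : G} (hx : x ∈ K)
    (hd : ∀ v, ρ (x * (s * x * s⁻¹)) (ρ s v - v) = ρ s v - v) :
    ρ s * ρ x * (ρ s - 1) = ρ x⁻¹ * (ρ s - 1) ∧
      (ρ s - 1) * ρ x * (ρ s - 1) = (ρ x + ρ x⁻¹) * (ρ s - 1) ∧ Commute (ρ x + ρ x⁻¹) (ρ s) := by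
  have h1 : ρ (x * (s * x * s⁻¹)) * (ρ s - 1) = ρ s - 1 := by
    ext v; exact hd v
  have h2 : (ρ s - 1) * ρ (x * (s * x * s⁻¹)) = ρ s - 1 := by
    rw [← ((S.theta_comm hs hm hx).map ρ).sub_right (Commute.one_right _), h1]
  rw [(S.cK hm hx hx).eq] at h2
  rw [S.inv_eq hs] at h1 h2
  simp only [map_mul] at h1 h2
  exact trace_id (add_self2 _) (by rw [← map_mul]; simp) (by rw [← map_mul]; simp)
    (by rw [← map_mul, S.sq hs, map_one]) h1 h2

theorem trace_mem {t : G} (ht : t ∈ A) (hm : kc K t ≠ K)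
    (hd : ∀ s ∈ A, kc K s ≠ K → ∀ x ∈ K, ∀ v, ρ (x * (s * x * s⁻¹)) (ρ s v - v) = ρ s v - v)
    {x : G} (hx : x ∈ K) : ρ x + ρ x⁻¹ ∈ scal ρ K A := by
  have h1 : ∀ s ∈ A, kc K s ≠ K → Commute (ρ x + ρ x⁻¹) (ρ s) := fun s hs hsm =>
    (S.trace_facts hs hsm hx (hd s hs hsm x hx)).2.2
  refine ⟨add_mem (mem_spanR ρ hx) (mem_spanR ρ (inv_mem hx)), fun a ha => ?_, fun k hk => ?_⟩
  · by_cases h : kc K a = K
    · have e : a = t * (t * a) := by rw [← mul_assoc, S.sq ht, one_mul]
      rw [e, map_mul]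
      exact (h1 t ht hm).mul_right (h1 _ (mul_mem ht ha) (by rw [← kc_kc, h]; exact hm))
    · exact h1 a ha h
  · have e : k = t * (t * k * t⁻¹) * t := by
      rw [← mul_assoc, ← mul_assoc, S.sq ht]; simp
    rw [e, map_mul, map_mul]
    exact ((h1 t ht hm).mul_right (((S.cK hm hx hk).map ρ).add_left
      ((S.cK hm (inv_mem hx) hk).map ρ))).mul_right (h1 t ht hm)

theorem not_card_le_two [Finite G] [Finite V] {t : G} (ht : t ∈ A) (hm : kc K t ≠ K)
    (hd : ∀ s ∈ A, kc K s ≠ K → ∀ x ∈ K, ∀ v, ρ (x * (s * x * s⁻¹)) (ρ s v - v) = ρ s v - v) :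
    ¬ Nat.card (scal ρ K A) ≤ 2 := by
  intro h
  haveI := S.scal_domain
  haveI : Finite (Module.End (ZMod 2) V) := Finite.of_injective _ DFunLike.coe_injective
  refine CfsgLib.Comp.comp_not_le_solvable S.comp
    (CfsgLib.Char.isSolvable_of_prime_dvd_card Nat.prime_two Nat.prime_three ?_) le_rfl
  intro r hr hdvd
  haveI := Fact.mk hr
  obtain ⟨⟨x, hx⟩, hxr⟩ := exists_prime_orderOf_dvd_card' r hdvd
  rw [← Subgroup.orderOf_coe] at hxr
  have e : ρ x * ρ x⁻¹ = 1 := by rw [← map_mul]; simp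
  by_cases h0 : (⟨_, S.trace_mem ht hm hd hx⟩ : scal ρ K A) = 0
  · left
    have h1 : ρ x + ρ x⁻¹ = 0 := congrArg Subtype.val h0
    have h2 : x ^ 2 = 1 := by
      apply S.inj
      rw [map_pow, map_one]
      linear_combination (norm := noncomm_ring) ρ x * h1 - e - add_self2 _ (1 : Module.End (ZMod 2) V)
    exact (Nat.prime_dvd_prime_iff_eq hr Nat.prime_two).1 (hxr ▸ orderOf_dvd_of_pow_eq_one h2)
  · right
    have h1 : ρ x + ρ x⁻¹ = 1 := congrArg Subtype.val (eq_of_card_le_two h h0 one_ne_zero)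
    have h2 : x ^ 3 = 1 := by
      apply S.inj
      rw [map_pow, map_one]
      linear_combination (norm := noncomm_ring) (ρ x * ρ x + ρ x) * h1 - (ρ x + 1) * e -
        add_self2 _ (1 : Module.End (ZMod 2) V)
    exact (Nat.prime_dvd_prime_iff_eq hr Nat.prime_three).1 (hxr ▸ orderOf_dvd_of_pow_eq_one h2)

end Setup

end CfsgLib.PGV
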