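import Cfsg.Agent.Lib.PGV.Core3

/-! # The P(G,V)-theorem on an irreducible module -/

set_option autoImplicit false

namespace CfsgLib.PGV

open Subgroup
open scoped commutatorElement

variable {G V : Type*} [Group G] [AddCommGroup V] [Module (ZMod 2) V]

/-- Conjugation by an element of `A` normalizing `K`, as an algebra map of the span of `K`. -/
def conjAlg {ρ : Representation (ZMod 2) G V} {K A : Subgroup G} (c : {c : G // c ∈ A ∧ kc K c = K}) :
    spanR ρ K →ₐ[scal ρ K A] spanR ρ K where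
  toFun z := ⟨ρ c.1 * z.1 * ρ c.1⁻¹, spanR_conj c.2.2 z.2⟩
  map_one' := Subtype.ext (by simp [← map_mul])
  map_mul' z w := Subtype.ext (by
    have e : ρ c.1⁻¹ * ρ c.1 = 1 := by rw [← map_mul]; simp
    change ρ c.1 * (z.1 * w.1) * ρ c.1⁻¹ = ρ c.1 * z.1 * ρ c.1⁻¹ * (ρ c.1 * w.1 * ρ c.1⁻¹)
    linear_combination (norm := noncomm_ring) - ρ c.1 * z.1 * e * w.1 * ρ c.1⁻¹)
  map_zero' := Subtype.ext (by simp)
  map_add' z w := Subtype.ext (by simp [mul_add, add_mul])
  commutes' s := Subtype.ext (by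
    change ρ c.1 * s.1 * ρ c.1⁻¹ = s.1
    rw [← (s.2.2.1 c.1 c.2.1).eq, mul_assoc, ← map_mul]; simp)

theorem coe_conjAlg {ρ : Representation (ZMod 2) G V} {K A : Subgroup G}
    (c : {c : G // c ∈ A ∧ kc K c = K}) (z : spanR ρ K) :
    ((conjAlg c z : spanR ρ K) : Module.End (ZMod 2) V) = ρ c.1 * z.1 * ρ c.1⁻¹ := rfl

namespace Setup

variable {ρ : Representation (ZMod 2) G V} {K A : Subgroup G} (S : Setup ρ K A)
include S

theorem card_le_two_mul [Finite G] {t : G} (ht : t ∈ A)
    (htwo : ∀ a ∈ A, kc K a = K ∨ kc K a = kc K t) :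
    Nat.card A ≤ 2 * Nat.card {c : G // c ∈ A ∧ kc K c = K} := by
  let f : Bool × {c : G // c ∈ A ∧ kc K c = K} → A := fun x =>
    if x.1 then ⟨t * x.2.1, mul_mem ht x.2.2.1⟩ else ⟨x.2.1, x.2.2.1⟩
  have hf : Function.Surjective f := by
    rintro ⟨a, ha⟩
    rcases htwo a ha with h | h
    · exact ⟨(false, ⟨a, ha, h⟩), rfl⟩
    · refine ⟨(true, ⟨t * a, mul_mem ht ha, by rw [← kc_kc, h, S.kc_kc_self ht]⟩), Subtype.ext ?_⟩
      change t * (t * a) = a
      rw [← mul_assoc, S.sq ht, one_mul]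
  have := Nat.card_le_card_of_surjective f hf
  simpa [Nat.card_prod] using this

theorem final [Finite G] [Finite V] {t : G} (ht : t ∈ A) (hm : kc K t ≠ K)
    (htwo : ∀ a ∈ A, kc K a = K ∨ kc K a = kc K t)
    (hd : ∀ s ∈ A, kc K s ≠ K → ∀ x ∈ K, ∀ v, ρ (x * (s * x * s⁻¹)) (ρ s v - v) = ρ s v - v)
    (hcard : Nat.card V ≤ Nat.card A * Nat.card {v : V // ∀ a ∈ A, ρ a v = v}) : False := by
  classical
  haveI := S.scal_domain
  haveI : Finite (Module.End (ZMod 2) V) := Finite.of_injective _ DFunLike.coe_injective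
  letI : Field (scal ρ K A) := (Finite.isField_of_domain (scal ρ K A)).toField
  have ht1 : t ≠ 1 := by rintro rfl; exact hm (kc_one K)
  obtain ⟨e, he⟩ : ∃ e, e = ρ t - 1 := ⟨_, rfl⟩
  have he0 : e ≠ 0 := fun h => ht1 (S.inj (by rw [map_one, ← sub_eq_zero, ← he, h]))
  have hse : ∀ s : scal ρ K A, Commute s.1 e := fun s =>
    he ▸ (s.2.2.1 t ht).sub_right (Commute.one_right _)
  have huniq : ∀ s s' : scal ρ K A, s.1 * e = s'.1 * e → s = s' := by
    intro s s' h
    by_contra hne
    have h1 := S.scal_inj (s - s').2 (fun h => hne (sub_eq_zero.1 (Subtype.ext h)))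
    apply he0
    ext v
    apply h1
    have := LinearMap.congr_fun h v
    simp only [Module.End.mul_apply] at this
    simp [this]
  have hex : ∀ z : spanR ρ K, ∃ s : scal ρ K A, e * z.1 * e = s.1 * e := by
    refine spanR_ind _ (fun k hk => ⟨⟨_, S.trace_mem ht hm hd hk⟩, ?_⟩) ⟨0, by simp⟩ ?_
    · rw [he]; exact (S.trace_facts ht hm hk (hd t ht hm k hk)).2.1
    · rintro a b ⟨s, hs⟩ ⟨s', hs'⟩
      exact ⟨s + s', by simp [mul_add, add_mul, hs, hs']⟩
  choose τ₀ hτ₀ using hex
  let τ : spanR ρ K →ₗ[scal ρ K A] scal ρ K A :=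
    { toFun := τ₀
      map_add' := fun a b => huniq _ _ (by simp [← hτ₀, mul_add, add_mul])
      map_smul' := fun s a => huniq _ _ (by
        rw [← hτ₀, coe_smul']
        change _ = s.1 * (τ₀ a).1 * e
        rw [mul_assoc s.1, ← hτ₀, ← mul_assoc, ← (hse s).eq]; simp only [mul_assoc]) }
  have hτ : ∀ z, e * z.1 * e = (τ z).1 * e := hτ₀
  have hτK : ∀ k (hk : k ∈ K), (⟨ρ k, mem_spanR ρ hk⟩ : spanR ρ K) + τ ⟨ρ k, mem_spanR ρ hk⟩ • (1 : spanR ρ K) =
      ⟨ρ k⁻¹, mem_spanR ρ (inv_mem hk)⟩ := by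
    intro k hk
    have : τ ⟨ρ k, mem_spanR ρ hk⟩ = ⟨_, S.trace_mem ht hm hd hk⟩ := huniq _ _ (by
      rw [← hτ, he]; exact (S.trace_facts ht hm hk (hd t ht hm k hk)).2.1)
    rw [this]
    apply Subtype.ext
    change ρ k + (ρ k + ρ k⁻¹) * 1 = ρ k⁻¹
    rw [mul_one, ← add_assoc, add_self2, zero_add]
  have hτ1 : τ 1 = 0 := huniq _ _ (by
    rw [← hτ]
    have : ρ t * ρ t = 1 := by rw [← map_mul, S.sq ht, map_one]
    simp only [OneMemClass.coe_one, ZeroMemClass.coe_zero, he]
    linear_combination (norm := noncomm_ring) this - add_self2 _ (ρ t - 1))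
  have h2E : ∀ z : spanR ρ K, z + z = 0 := fun z => Subtype.ext (add_self2 _ z.1)
  have hanti : ∀ z w : spanR ρ K, z * w + τ (z * w) • (1 : spanR ρ K) =
      (w + τ w • (1 : spanR ρ K)) * (z + τ z • (1 : spanR ρ K)) := by
    intro z w
    induction z using spanR_ind with
    | h0 => simp
    | hadd a b ha hb =>
      simp only [add_mul, map_add, add_smul, mul_add] at ha hb ⊢
      linear_combination (norm := abel) ha + hb
    | h1 k hk =>
      induction w using spanR_ind with
      | h0 => simp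
      | hadd a b ha hb =>
        simp only [add_mul, map_add, add_smul, mul_add] at ha hb ⊢
        linear_combination (norm := abel) ha + hb
      | h1 l hl =>
        have : (⟨ρ k, mem_spanR ρ hk⟩ : spanR ρ K) * ⟨ρ l, mem_spanR ρ hl⟩ =
            ⟨ρ (k * l), mem_spanR ρ (mul_mem hk hl)⟩ := Subtype.ext (map_mul ρ k l).symm
        rw [this, hτK _ (mul_mem hk hl), hτK _ hl, hτK _ hk]
        exact Subtype.ext (by simp)
  have hnorm : ∀ z : spanR ρ K, ∃ s : scal ρ K A, z * (z + τ z • (1 : spanR ρ K)) = s • (1 : spanR ρ K) := by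
    intro z
    induction z using spanR_ind with
    | h0 => exact ⟨0, by simp⟩
    | h1 k hk => exact ⟨1, by rw [hτK _ hk]; exact Subtype.ext (by simp [← map_mul])⟩
    | hadd a b ha hb =>
      obtain ⟨s, hs⟩ := ha
      obtain ⟨s', hs'⟩ := hb
      refine ⟨s + s' + τ (a * (b + τ b • (1 : spanR ρ K))), ?_⟩
      have h1 := hanti a (b + τ b • (1 : spanR ρ K))
      have h2 : b + τ b • (1 : spanR ρ K) + τ (b + τ b • (1 : spanR ρ K)) • (1 : spanR ρ K) = b := by
        rw [map_add, map_smul, hτ1, smul_zero, add_zero, add_assoc, h2E, add_zero]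
      rw [h2] at h1
      have h3 := h2E (a * (b + τ b • (1 : spanR ρ K)))
      simp only [add_mul, map_add, add_smul, mul_add] at hs hs' h1 h3 ⊢
      linear_combination (norm := abel) hs + hs' - h1 + h3
  have hte : ∀ y : spanR ρ K, ρ t * y.1 * e = (y + τ y • (1 : spanR ρ K)).1 * e := by
    intro y
    induction y using spanR_ind with
    | h0 => simp
    | h1 k hk => rw [hτK _ hk, he]; exact (S.trace_facts ht hm hk (hd t ht hm k hk)).1
    | hadd a b ha hb =>
      simp only [add_mul, map_add, add_smul, mul_add, Subring.coe_add] at ha hb ⊢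
      linear_combination (norm := abel) ha + hb
  have hce : ∀ c ∈ A, Commute (ρ c) e := fun c hc =>
    he ▸ ((S.commA hc ht).map ρ).sub_right (Commute.one_right _)
  have hnd : ∀ z : spanR ρ K, z ≠ 0 → ∃ y, τ (z * y) ≠ 0 := by
    intro z hz
    by_contra hcon
    push Not at hcon
    set U := Submodule.span (ZMod 2) {u | ∃ y : spanR ρ K, ∃ v, u = y.1 (e v)} with hU
    have hinv : ∀ g : G, (∀ y : spanR ρ K, ∀ v, ∃ y' : spanR ρ K, ∃ v', ρ g (y.1 (e v)) = y'.1 (e v')) →
        ∀ u ∈ U, ρ g u ∈ U := by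
      intro g hg u hu
      have : U ≤ U.comap (ρ g) := by
        rw [hU, Submodule.span_le]
        rintro _ ⟨y, v, rfl⟩
        exact Submodule.subset_span (hg y v)
      exact this hu
    have hfix : ∀ c ∈ A, kc K c = K → ∀ u ∈ U, ρ c u ∈ U := fun c hc hcK => hinv c fun y v =>
      ⟨conjAlg ⟨c, hc, hcK⟩ y, ρ c v, by
        rw [coe_conjAlg, ← Module.End.mul_apply e, ← (hce c hc).eq]; simp⟩
    have htU : ∀ u ∈ U, ρ t u ∈ U := hinv t fun y v =>
      ⟨y + τ y • (1 : spanR ρ K), v, LinearMap.congr_fun (hte y) v⟩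
    rcases S.irr U (fun k hk => hinv k fun y v => ⟨⟨ρ k, mem_spanR ρ hk⟩ * y, v, rfl⟩) (fun a ha u hu => by
      rcases htwo a ha with h | h
      · exact hfix a ha h u hu
      · have := htU _ (hfix (t * a) (mul_mem ht ha) (by rw [← kc_kc, h, S.kc_kc_self ht]) u hu)
        rwa [← rho_mul, ← mul_assoc, S.sq ht, one_mul] at this) with h | h
    · apply he0
      ext v
      have : e v ∈ U := Submodule.subset_span ⟨1, v, rfl⟩
      rw [h] at this
      simpa using this
    · have hez : ∀ v, ρ t (z.1 v) = z.1 v := by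
        intro v
        have : U ≤ LinearMap.ker (e * z.1) := by
          rw [hU, Submodule.span_le]
          rintro _ ⟨y, v, rfl⟩
          have := LinearMap.congr_fun (hτ (z * y)) v
          rw [hcon y] at this
          simpa using this
        have := this (h ▸ Submodule.mem_top : v ∈ U)
        simpa [he, sub_eq_zero] using this
      set W : Set V := {u | ∃ v, u = z.1 v} with hW
      have htW : t ∈ fixG ρ W := by rintro _ ⟨v, rfl⟩; exact hez v
      have S' := S.conj ht
      have h1 : kc K t ≤ fixG ρ W := by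
        refine le_of_conj S'.comp (fun k hk n hn => conj_mem_fixG ?_ hn) htW (S'.not_cent ht ht1)
        rintro _ ⟨v, rfl⟩
        have : Commute (ρ k⁻¹) z.1 := spanR_comm (fun l hl =>
          ((comm_of_ne S'.comp S.comp hm (inv_mem hk) hl).map ρ)) z.2
        exact ⟨ρ k⁻¹ v, LinearMap.congr_fun this.eq v⟩
      have h2 : K ≤ fixG ρ W := by
        intro k hk
        have := mul_mem (mul_mem (inv_mem htW) (h1 (conj_mem_kc t hk))) htW
        simpa [mul_assoc] using this
      set M := K ⊔ kc K t with hM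
      have hn : ∀ g : G, kc K g⁻¹ ≤ M → kc (kc K t) g⁻¹ ≤ M → ∀ u ∈ fixS ρ M, ρ g u ∈ fixS ρ M := by
        intro g g1 g2 u hu
        refine fixS_inv (fun m hm => ?_) hu
        have : M ≤ M.comap (MulAut.conj g⁻¹).toMonoidHom :=
          sup_le (fun x hx => g1 (conj_mem_kc _ hx)) (fun x hx => g2 (conj_mem_kc _ hx))
        simpa using this hm
      rcases S.irr (fixS ρ M) (fun k hk u hu => by rw [hu k (mem_sup_left hk)]; exact hu)
        (fun a ha => by
          have ha' := inv_mem ha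
          rcases htwo _ ha' with h | h
          · exact hn a (by rw [h]; exact le_sup_left) (by rw [S.kc_comm ht ha', h]; exact le_sup_right)
          · exact hn a (by rw [h]; exact le_sup_right)
              (by rw [S.kc_comm ht ha', h, S.kc_kc_self ht]; exact le_sup_left)) with h3 | h3
      · apply hz
        apply Subtype.ext
        ext v
        have : z.1 v ∈ fixS ρ M := fun m hm => (sup_le h2 h1 : M ≤ _) hm _ ⟨v, rfl⟩
        rw [h3] at this
        simpa using this
      · apply CfsgLib.Comp.comp_ne_bot S.comp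
        rw [eq_bot_iff]
        intro k hk
        apply S.inj
        ext v
        have : v ∈ fixS ρ M := h3 ▸ Submodule.mem_top
        simpa using this k (mem_sup_left hk)
  have hnc : ∃ x y : spanR ρ K, x * y ≠ y * x := by
    by_contra hcon
    push Not at hcon
    apply CfsgLib.Comp.comp_not_le_centralizer S.comp
    intro k hk l hl
    apply S.inj
    rw [map_mul, map_mul]
    exact congrArg Subtype.val (hcon ⟨_, mem_spanR ρ hl⟩ ⟨_, mem_spanR ρ hk⟩)
  let D : QData (scal ρ K A) (spanR ρ K) :=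
    { τ := τ
      two := one_add_one_eq_two.symm.trans (Subtype.ext (add_self2 _ (1 : Module.End (ZMod 2) V)))
      τ_one := hτ1, anti := hanti, norm := hnorm, nd := hnd, nc := hnc }
  have hA := S.card_le_two_mul ht htwo
  have hq := S.not_card_le_two ht hm hd
  have hker : ∀ c ∈ A, Nat.card {v : V // ∀ a ∈ A, ρ a v = v} ≤ Nat.card (LinearMap.ker (ρ c - 1)) :=
    fun c hc => Nat.card_le_card_of_injective
      (fun v => ⟨v.1, by simp [v.2 c hc]⟩) (fun v w h => Subtype.ext (by simpa using h))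
  have hrange : ∀ c ∈ A, Nat.card (LinearMap.range (ρ c - 1)) ≤ Nat.card A := by
    intro c hc
    have h1 := card_ker_range (ρ c - 1)
    have h2 := hker c hc
    have h3 : 0 < Nat.card (LinearMap.ker (ρ c - 1)) := Nat.card_pos
    apply Nat.le_of_mul_le_mul_left _ h3
    rw [← h1, mul_comm]
    exact hcard.trans (Nat.mul_le_mul_left _ h2)
  obtain ⟨v₀, hv₀⟩ : ∃ v, e v ≠ 0 := by
    by_contra h
    push Not at h
    exact he0 (LinearMap.ext h)
  by_cases hB : ∀ c : {c : G // c ∈ A ∧ kc K c = K}, c.1 = 1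
  · have h1 : Nat.card {c : G // c ∈ A ∧ kc K c = K} ≤ 1 := by
      haveI : Subsingleton {c : G // c ∈ A ∧ kc K c = K} := ⟨fun a b => Subtype.ext (by rw [hB a, hB b])⟩
      exact Finite.card_le_one_iff_subsingleton.2 inferInstance
    have h2 : Nat.card (scal ρ K A) ≤ Nat.card (LinearMap.range (ρ t - 1)) := by
      refine Nat.card_le_card_of_injective (fun s => ⟨s.1 (e v₀), s.1 v₀, ?_⟩) ?_
      · rw [← he]; exact (LinearMap.congr_fun (hse s).eq v₀).symm
      · intro s s' h
        by_contra hne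
        have h1 := S.scal_inj (s - s').2 (fun h => hne (sub_eq_zero.1 (Subtype.ext h)))
        apply hv₀
        apply h1
        have := congrArg Subtype.val h
        simp only at this
        simp [this]
    have := hrange t ht
    omega
  push Not at hB
  obtain ⟨c, hc1⟩ := hB
  obtain ⟨k, hk, hkc⟩ : ∃ k ∈ K, ¬ Commute k c.1 := by
    have := S.not_cent c.2.1 hc1
    push Not at this
    exact this
  have hmain := D.main (conjAlg (ρ := ρ) (K := K) (A := A)) (by
      intro c c' h
      by_contra hne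
      refine S.not_cent (mul_mem (inv_mem c'.2.1) c.2.1) (fun h => hne (Subtype.ext ?_)) fun k hk => ?_
      · exact (inv_mul_eq_one.1 h).symm
      · have := congrArg Subtype.val (h ⟨_, mem_spanR ρ hk⟩)
        simp only [coe_conjAlg, ← map_mul] at this
        have := S.inj this
        calc k * (c'.1⁻¹ * c.1) = c'.1⁻¹ * (c'.1 * k * c'.1⁻¹) * c.1 := by group
          _ = _ := by rw [← this]; group)
    (fun c z => Subtype.ext (by
      have e1 : ρ c.1 * ρ c.1 = 1 := by rw [← map_mul, S.sq c.2.1, map_one]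
      simp only [coe_conjAlg, S.inv_eq c.2.1]
      linear_combination (norm := noncomm_ring) e1 * z.1 * (ρ c.1 * ρ c.1) + z.1 * e1))
    (fun c c' z => Subtype.ext (by
      have e1 := ((S.commA c.2.1 c'.2.1).map ρ).eq
      simp only [coe_conjAlg, S.inv_eq c.2.1, S.inv_eq c'.2.1]
      linear_combination (norm := noncomm_ring) e1 * z.1 * (ρ c'.1 * ρ c.1) -
        (ρ c'.1 * ρ c.1) * z.1 * e1))
    (fun c z => huniq _ _ (by
      change (τ _).1 * e = (τ z).1 * e
      have e1 : ρ c.1 * ρ c.1⁻¹ = 1 := by rw [← map_mul]; simp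
      have e2 := (hce c.1 c.2.1).eq
      have e3 := (hce c.1⁻¹ (inv_mem c.2.1)).eq
      have e4 := ((τ z).2.2.1 c.1 c.2.1).eq
      have e5 := hτ z
      rw [← hτ, coe_conjAlg]
      linear_combination (norm := noncomm_ring) - e2 * z.1 * ρ c.1⁻¹ * e + ρ c.1 * e * z.1 * e3 +
        ρ c.1 * e5 * ρ c.1⁻¹ - e4 * e * ρ c.1⁻¹ - (τ z).1 * ρ c.1 * e3 + (τ z).1 * e1 * e))
    (c := c) (z₀ := ⟨_, mem_spanR ρ hk⟩) (by
      intro h
      have := congrArg Subtype.val h
      simp only [coe_conjAlg, ← map_mul] at this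
      exact hkc (mul_inv_eq_iff_eq_mul.1 (S.inj this)).symm)
  obtain ⟨hB, n, y, hn, hy, hspan⟩ := hmain
  obtain ⟨w, hw0, ⟨u, hu⟩, hwc⟩ : ∃ w, w ≠ 0 ∧ (∃ u, w = e u) ∧ ρ c.1 w = w := by
    by_cases h : ρ c.1 (e v₀) = e v₀
    · exact ⟨e v₀, hv₀, ⟨v₀, rfl⟩, h⟩
    · refine ⟨ρ c.1 (e v₀) - e v₀, sub_ne_zero.2 h, ⟨ρ c.1 v₀ - v₀, ?_⟩, S.self_fix c.2.1 _⟩
      rw [map_sub, ← Module.End.mul_apply e, ← (hce c.1 c.2.1).eq, Module.End.mul_apply]
  have hnw : n.1 w ≠ 0 := by
    intro h
    have := LinearMap.congr_fun (hτ (y * n)) u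
    have hy' : τ (y * n) = 1 := hy
    rw [hy'] at this
    simp only [Subring.coe_mul, Module.End.mul_apply, ← hu, h, map_zero] at this
    exact hw0 this.symm
  have h2 : Nat.card (scal ρ K A × scal ρ K A) ≤ Nat.card (LinearMap.range (ρ c.1 - 1)) := by
    refine Nat.card_le_card_of_injective
      (fun s => ⟨(s.1 • (1 : spanR ρ K) + s.2 • n).1 w, ?_⟩) ?_
    · obtain ⟨z, hz⟩ := hspan s.1 s.2
      refine ⟨z.1 w, ?_⟩
      have hwc' : ρ c.1⁻¹ w = w := by rw [S.inv_eq c.2.1, hwc]
      rw [← hz]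
      simp only [Subring.coe_add, coe_conjAlg, LinearMap.add_apply, Module.End.mul_apply, hwc',
        LinearMap.sub_apply, Module.End.one_apply]
      linear_combination (norm := abel) - add_self2 V (z.1 w)
    · rintro ⟨α, γ⟩ ⟨α', γ'⟩ h
      have h1 : ((α - α') • (1 : spanR ρ K) + (γ - γ') • n).1 w = 0 := by
        have := congrArg Subtype.val h
        simp only [Subring.coe_add, coe_smul', LinearMap.add_apply, Module.End.mul_apply,
          AddSubgroupClass.coe_sub, LinearMap.sub_apply] at this ⊢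
        linear_combination (norm := abel) this
      have h3 : (n * ((α - α') • (1 : spanR ρ K) + (γ - γ') • n)).1 w = 0 := by
        rw [Subring.coe_mul, Module.End.mul_apply, h1, map_zero]
      rw [mul_add, mul_smul_comm, mul_smul_comm, hn, smul_zero, add_zero, mul_one, coe_smul',
        Module.End.mul_apply] at h3
      have hα : α = α' := by
        by_contra hne
        exact hnw (S.scal_inj (α - α').2 (fun h => hne (sub_eq_zero.1 (Subtype.ext h)))
          (by rw [h3, map_zero]))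
      rw [hα, sub_self, zero_smul, zero_add, coe_smul', Module.End.mul_apply] at h1
      have hγ : γ = γ' := by
        by_contra hne
        exact hnw (S.scal_inj (γ - γ').2 (fun h => hne (sub_eq_zero.1 (Subtype.ext h)))
          (by rw [h1, map_zero]))
      rw [hα, hγ]
  have h3 := hrange c.1 c.2.1
  rw [Nat.card_prod] at h2
  nlinarith

theorem even [Finite G] [Finite V] {b : G} (hb : b ∈ A) (hb1 : b ≠ 1)
    (hq : ∀ a ∈ A, ∀ v, ρ a (ρ b v - v) = ρ b v - v)
    (hcard : Nat.card V ≤ Nat.card A * Nat.card {v : V // ∀ a ∈ A, ρ a v = v}) {a : G} (ha : a ∈ A) :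
    kc K a = K := by
  by_contra hne
  have hdich : ∀ t ∈ A, (∃ c ∈ A, c ≠ 1 ∧ c ≠ t ∧ ∀ v, ρ c (ρ t v - v) = ρ t v - v) ∨
      Nat.card (LinearMap.range (ρ t - 1)) ≤ 2 := by
    intro t ht
    by_cases hbt : b = t
    · subst hbt
      by_cases h : ∃ c ∈ A, c ≠ 1 ∧ c ≠ b
      · obtain ⟨c, hc, h1, h2⟩ := h
        exact Or.inl ⟨c, hc, h1, h2, hq c hc⟩
      · right
        push Not at h
        have h1 : Nat.card A ≤ 2 := by
          have : Nat.card A ≤ Nat.card Bool := Nat.card_le_card_of_surjective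
            (fun x : Bool => if x then (⟨b, hb⟩ : A) else 1) (by
              rintro ⟨c, hc⟩
              by_cases h1 : c = 1
              · exact ⟨false, Subtype.ext h1.symm⟩
              · exact ⟨true, Subtype.ext (h c hc h1).symm⟩)
          simpa using this
        have h2 : Nat.card {v : V // ∀ a ∈ A, ρ a v = v} ≤ Nat.card (LinearMap.ker (ρ b - 1)) :=
          Nat.card_le_card_of_injective
            (fun v => ⟨v.1, by simp [v.2 b hb]⟩) (fun v w h => Subtype.ext (by simpa using h))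
        have h3 := card_ker_range (ρ b - 1)
        have h4 : 0 < Nat.card (LinearMap.ker (ρ b - 1)) := Nat.card_pos
        apply Nat.le_of_mul_le_mul_left _ h4
        rw [← h3, mul_comm]
        exact hcard.trans (Nat.mul_le_mul h1 h2)
    · refine Or.inl ⟨b, hb, hb1, hbt, fun v => ?_⟩
      have := hq t ht v
      rw [map_sub, ← rho_mul, (S.commA ht hb).eq, rho_mul] at this
      rw [map_sub]
      linear_combination (norm := abel) this
  obtain ⟨t, ht, hm, hbt⟩ : ∃ t ∈ A, kc K t ≠ K ∧ (b = t ∨ kc K b = K) := by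
    by_cases h : kc K b = K
    · exact ⟨a, ha, hne, Or.inr h⟩
    · exact ⟨b, hb, h, Or.inl rfl⟩
  exact S.final ht hm (fun a ha => S.two hb hb1 hq ht hm hbt
      (fun c hc x hx => (S.conj hc).dia ht (S.moves_conj hc ht hm) (hdich t ht) hx) ha)
    (fun s hs hsm x hx => S.dia hs hsm (hdich s hs) hx) hcard

end Setup

/-- The P(G,V)-theorem on a faithful irreducible module. -/
theorem Setup.core {p : ℕ} [Fact p.Prime] {G V : Type*} [Group G] [AddCommGroup V] [Module (ZMod p) V]
    [Finite G] [Finite V] {ρ : Representation (ZMod p) G V} {K A : Subgroup G} (S : Setup ρ K A)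
    {b : G} (hb : b ∈ A) (hb1 : b ≠ 1) (hq : ∀ a ∈ A, ∀ v, ρ a (ρ b v - v) = ρ b v - v)
    (hcard : Nat.card V ≤ Nat.card A * Nat.card {v : V // ∀ a ∈ A, ρ a v = v}) {a : G} (ha : a ∈ A) :
    kc K a = K := by
  by_cases hp : p = 2
  · subst hp
    exact S.even hb hb1 hq hcard ha
  · exact S.odd hp hb hb1 hq ha

end CfsgLib.PGV
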