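import Mathlib
import Cfsg.Agent.Lib.PLocal.Offender

/-! # Timmesfeld replacement for linear representations -/

set_option autoImplicit false

namespace CfsgLib.PGV

open Subgroup SemidirectProduct
open scoped commutatorElement

variable {p : ℕ} {G V : Type*} [Group G] [AddCommGroup V] [Module (ZMod p) V]

/-- The action of `G` on the multiplicative copy of the module. -/
def mact (ρ : Representation (ZMod p) G V) : G →* MulAut (Multiplicative V) where
  toFun g :=
    { toFun := fun v => Multiplicative.ofAdd (ρ g v.toAdd)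
      invFun := fun v => Multiplicative.ofAdd (ρ g⁻¹ v.toAdd)
      left_inv := fun v => by simp
      right_inv := fun v => by simp
      map_mul' := fun v w => by simp }
  map_one' := by ext v; simp
  map_mul' g h := by ext v; simp

theorem mact_apply (ρ : Representation (ZMod p) G V) (g : G) (v : V) :
    mact ρ g (Multiplicative.ofAdd v) = Multiplicative.ofAdd (ρ g v) := rfl

theorem comm_iff (ρ : Representation (ZMod p) G V) (g : G) (v : V) :
    (inr g : Multiplicative V ⋊[mact ρ] G) * inl (Multiplicative.ofAdd v) =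
      inl (Multiplicative.ofAdd v) * inr g ↔ ρ g v = v := by
  rw [← mul_inv_eq_iff_eq_mul, ← map_inv, ← inl_aut, inl_inj, mact_apply]
  exact Multiplicative.ofAdd.apply_eq_iff_eq

theorem card_cent (ρ : Representation (ZMod p) G V) (B : Subgroup G) :
    Nat.card ↥((inl : Multiplicative V →* Multiplicative V ⋊[mact ρ] G).range ⊓
      centralizer ((B.map (inr : G →* Multiplicative V ⋊[mact ρ] G) : Subgroup _) : Set _)) =
      Nat.card {v : V // ∀ b ∈ B, ρ b v = v} := by
  symm
  refine Nat.card_congr (Equiv.ofBijective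
    (fun v => ⟨inl (Multiplicative.ofAdd v.1), ⟨_, rfl⟩, ?_⟩) ⟨?_, ?_⟩)
  · rintro _ ⟨b, hb, rfl⟩
    exact (comm_iff ρ b v.1).2 (v.2 b hb)
  · intro v w h
    have := inl_injective (congrArg Subtype.val h)
    exact Subtype.ext (Multiplicative.ofAdd.injective this)
  · rintro ⟨_, ⟨v, rfl⟩, hv⟩
    exact ⟨⟨v.toAdd, fun b hb => (comm_iff ρ b v.toAdd).1 (hv _ ⟨b, hb, rfl⟩)⟩, rfl⟩

theorem repl [Finite G] [Finite V] [Fact p.Prime] (ρ : Representation (ZMod p) G V) {A : Subgroup G}
    (hAel : Cfsg.IsElementaryAbelian p A)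
    (hP : ∀ B : Subgroup G, B ≤ A →
      Nat.card ↥B * Nat.card {v : V // ∀ b ∈ B, ρ b v = v} ≤
        Nat.card ↥A * Nat.card {v : V // ∀ a ∈ A, ρ a v = v})
    {a : G} (ha : a ∈ A) {v : V} (hav : ρ a v ≠ v) :
    ∃ b ∈ A, (∃ v, ρ b v ≠ v) ∧ ∀ a ∈ A, ∀ v, ρ b (ρ a v - v) = ρ a v - v := by
  set H := Multiplicative V ⋊[mact ρ] G
  haveI : Finite H := Finite.of_equiv _ (SemidirectProduct.equivProd (φ := mact ρ)).symm
  set V' : Subgroup H := (inl : Multiplicative V →* H).range with hV'
  set A' : Subgroup H := A.map (inr : G →* H) with hA'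
  have hVn : V'.Normal := by rw [hV', range_inl_eq_ker_rightHom]; infer_instance
  have hV : Cfsg.IsElementaryAbelian p V' := by
    constructor
    · refine ⟨⟨?_⟩⟩
      rintro ⟨_, x, rfl⟩ ⟨_, y, rfl⟩
      apply Subtype.ext
      change (inl x : H) * inl y = inl y * inl x
      rw [← map_mul, ← map_mul, mul_comm x y]
    · rintro _ ⟨x, rfl⟩
      rw [← map_pow]
      have : x ^ p = 1 := by
        apply Multiplicative.toAdd.injective
        rw [toAdd_pow, toAdd_one, ← Nat.cast_smul_eq_nsmul (ZMod p), ZMod.natCast_self, zero_smul]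
      rw [this, map_one]
  have hcomm : ∀ x ∈ A', ∀ y ∈ A', x * y = y * x := by
    rintro _ ⟨x, hx, rfl⟩ _ ⟨y, hy, rfl⟩
    rw [← map_mul, ← map_mul]
    congr 1
    exact congrArg Subtype.val (hAel.1.is_comm.comm ⟨x, hx⟩ ⟨y, hy⟩)
  have hbest : Cfsg.IsBestOffenderOn p V' A' := by
    refine ⟨?_, ?_, ?_⟩
    · intro B' hB'
      have e : B' = (B'.comap inr).map (inr : G →* H) := by
        rw [map_comap_eq, eq_comm, inf_eq_right]
        exact hB'.trans (map_le_range _ _)
      have hle : B'.comap inr ≤ A := by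
        intro b hb
        obtain ⟨c, hc, hcb⟩ := hB' hb
        rwa [← inr_injective hcb]
      rw [e, hA', hV', card_cent, card_cent, Subgroup.card_map_of_injective inr_injective,
        Subgroup.card_map_of_injective inr_injective]
      exact hP _ hle
    · rw [commutator_eq_bot_iff_le_centralizer.2 (fun x hx y hy => hcomm y hy x hx)]
      exact bot_le
    · rintro _ ⟨x, hx, rfl⟩
      rw [← map_pow, hAel.2 x hx, map_one]
      exact one_mem _
  have h3 := (CfsgLib.PLocal.timmesfeld_replacement hV (le_normalizer_of_normal (H := V') (K := A'))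
    hbest le_rfl).2.2 (by
      rw [Ne, commutator_eq_bot_iff_le_centralizer]
      intro h
      exact hav ((comm_iff ρ a v).1 (h ⟨_, rfl⟩ _ ⟨a, ha, rfl⟩)))
  rw [Ne, commutator_eq_bot_iff_le_centralizer] at h3
  obtain ⟨_, ⟨w, rfl⟩, hw⟩ := SetLike.not_le_iff_exists.1 h3
  rw [mem_centralizer_iff] at hw
  push Not at hw
  obtain ⟨_, ⟨⟨b, hb, rfl⟩, hb2⟩, hw⟩ := hw
  refine ⟨b, hb, ⟨w.toAdd, fun h => hw ((comm_iff ρ b w.toAdd).2 h)⟩, fun c hc u => ?_⟩
  have hm : (⁅(inl (Multiplicative.ofAdd (-u)) : H), (inr c : H)⁆) ∈ ⁅V', A'⁆ :=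
    commutator_mem_commutator ⟨_, rfl⟩ ⟨c, hc, rfl⟩
  have e : (⁅(inl (Multiplicative.ofAdd (-u)) : H), (inr c : H)⁆) =
      (inl (Multiplicative.ofAdd (ρ c u - u)) : H) := by
    rw [commutatorElement_def, mul_assoc, mul_assoc, ← mul_assoc (inr c : H), ← map_inv (inl : Multiplicative V →* H),
      ← map_inv (inr : G →* H), ← inl_aut, ← map_mul]
    congr 1
    apply Multiplicative.toAdd.injective
    simp [mact, sub_eq_neg_add]
  rw [e] at hm
  exact (comm_iff ρ b _).1 (hb2 _ hm).symm

end CfsgLib.PGV
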