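import Cfsg.Agent.Lib.PGV.Core4
import Cfsg.Agent.Lib.PGV.Repl
import Cfsg.Agent.S3087

/-! # The P(G,V)-theorem: reduction to an irreducible faithful module -/

set_option autoImplicit false

namespace CfsgLib.PGV

open Subgroup
open scoped commutatorElement

variable {p : ℕ} [Fact p.Prime] {G V : Type*} [Group G] [AddCommGroup V] [Module (ZMod p) V]
  [Finite G] [Finite V] {ρ : Representation (ZMod p) G V} {K A : Subgroup G}

/-- the irreducible case, the action need not be faithful -/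
theorem irr_case (hK : Cfsg.IsComponent K) (hKρ : ¬ K ≤ MonoidHom.ker ρ)
    (hAel : Cfsg.IsElementaryAbelian p A)
    (irr : ∀ U : Submodule (ZMod p) V, (∀ k ∈ K, ∀ u ∈ U, ρ k u ∈ U) → (∀ a ∈ A, ∀ u ∈ U, ρ a u ∈ U) →
      U = ⊥ ∨ U = ⊤)
    {b : G} (hb : b ∈ A) (hb1 : b ∉ MonoidHom.ker ρ)
    (hq : ∀ a ∈ A, ∀ v, ρ a (ρ b v - v) = ρ b v - v)
    (hcard : Nat.card ↥(A ⊓ MonoidHom.ker ρ) * Nat.card V ≤
      Nat.card A * Nat.card {v : V // ∀ a ∈ A, ρ a v = v}) {a : G} (ha : a ∈ A) : kc K a = K := by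
  set N : Subgroup G := MonoidHom.ker ρ with hN
  let π := QuotientGroup.mk' N
  let ρ' : Representation (ZMod p) (G ⧸ N) V := QuotientGroup.lift N ρ le_rfl
  have hρ' : ∀ g, ρ' (π g) = ρ g := fun _ => rfl
  have hne : K.map π ≠ ⊥ := by
    rwa [Ne, Subgroup.map_eq_bot_iff, QuotientGroup.ker_mk']
  have hK' : Cfsg.IsComponent (K.map π) :=
    CfsgLib.Comp.comp_map_of_surjective hK π (QuotientGroup.mk'_surjective N) hne
  have S : Setup ρ' (K.map π) (A.map π) :=
    { inj := (injective_iff_map_eq_one ρ').2 fun g hg => by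
        obtain ⟨g, rfl⟩ := QuotientGroup.mk'_surjective N g
        exact (QuotientGroup.eq_one_iff g).2 hg
      comp := hK'
      el := ⟨by haveI := hAel.1; infer_instance, by
        rintro _ ⟨c, hc, rfl⟩
        rw [← map_pow, hAel.2 c hc, map_one]⟩
      irr := fun U h1 h2 => irr U (fun k hk => h1 (π k) (mem_map_of_mem _ hk))
        (fun c hc => h2 (π c) (mem_map_of_mem _ hc)) }
  have hc : Nat.card A = Nat.card ↥(A ⊓ N) * Nat.card (A.map π) := by
    have h1 := (π.domRestrict A).ker.card_mul_index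
    rw [index_ker, MonoidHom.domRestrict_range, MonoidHom.ker_domRestrict, QuotientGroup.ker_mk',
      ← inf_subgroupOf_left, Nat.card_congr (subgroupOfEquivOfLe inf_le_left).toEquiv] at h1
    exact h1.symm
  have h1 := S.core (mem_map_of_mem π hb) (fun h => hb1 ((QuotientGroup.eq_one_iff b).1 h))
    (by rintro _ ⟨c, hc, rfl⟩ v; exact hq c hc v) (by
      rw [hc, mul_assoc] at hcard
      refine (Nat.le_of_mul_le_mul_left hcard Nat.card_pos).trans (le_of_eq ?_)
      congr 1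
      refine Nat.card_congr (Equiv.subtypeEquivRight fun v => ⟨?_, fun h c hc => ?_⟩)
      · rintro h _ ⟨c, hc, rfl⟩; exact h c hc
      · exact h (π c) (mem_map_of_mem _ hc)) (mem_map_of_mem π ha)
  by_contra hne'
  refine not_pow_central (p := p) hK' 0 ?_
  rintro _ ⟨x, hx, rfl⟩ y hy
  rw [← h1] at hy
  obtain ⟨_, ⟨y, hy, rfl⟩, rfl⟩ := hy
  have := (comm_of_ne (comp_kc hK a) hK hne' (conj_mem_kc a hy) hx).map π
  simpa using this

/-- a perfect group acting quadratically acts trivially -/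
theorem le_ker_of_quad (hK : Cfsg.IsComponent K)
    (h : ∀ x ∈ K, ∀ y ∈ K, ∀ v, ρ x (ρ y v - v) = ρ y v - v) : K ≤ MonoidHom.ker ρ := by
  apply le_of_comm hK
  intro x hx y hy
  have : Commute (ρ x) (ρ y) := by
    ext v
    have h1 := h x hx y hy v
    have h2 := h y hy x hx v
    rw [map_sub] at h1 h2
    simp only [Module.End.mul_apply]
    linear_combination (norm := abel) h1 - h2
  rw [MonoidHom.mem_ker, commutatorElement_def, map_mul, map_mul, map_mul, this.eq, ← map_mul,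
    ← map_mul, ← map_mul]
  simp

/-- the case that `K` centralises every proper submodule -/
theorem uni_case (hK : Cfsg.IsComponent K) (hKρ : ¬ K ≤ MonoidHom.ker ρ) (hKA : K ⊔ A = ⊤)
    (hAel : Cfsg.IsElementaryAbelian p A)
    (uni : ∀ U : Submodule (ZMod p) V, (∀ g, ∀ u ∈ U, ρ g u ∈ U) → U ≠ ⊤ →
      ∀ k ∈ K, ∀ u ∈ U, ρ k u = u)
    (hP : ∀ B : Subgroup G, B ≤ A →
      Nat.card ↥B * Nat.card {v : V // ∀ b ∈ B, ρ b v = v} ≤
        Nat.card ↥A * Nat.card {v : V // ∀ a ∈ A, ρ a v = v}) {a : G} (ha : a ∈ A) : kc K a = K := by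
  by_contra hne
  have hac : ¬ ∀ k ∈ K, Commute k a := fun h => hne (by
    ext y
    rw [mem_kc]
    constructor
    · intro hy
      have := (h _ hy).eq
      rw [← mul_assoc, ← mul_assoc, mul_inv_cancel, one_mul, mul_left_inj] at this
      rwa [← this]
    · intro hy
      rwa [mul_assoc, (h y hy).eq, inv_mul_cancel_left])
  have haρ : ∃ v, ρ a v ≠ v := by
    by_contra h
    push Not at h
    exact hKρ (le_of_conj hK (fun k _ n hn => (MonoidHom.normal_ker ρ).conj_mem n hn k)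
      (LinearMap.ext h) hac)
  obtain ⟨v, hv⟩ := haρ
  obtain ⟨b, hb, hb1, hq⟩ := repl ρ hAel hP ha hv
  let Z : Submodule (ZMod p) V := ⨅ g : G, (fixS ρ K).comap (ρ g)
  have hZ : ∀ v, v ∈ Z ↔ ∀ g, ∀ k ∈ K, ρ k (ρ g v) = ρ g v := fun v => by
    simp [Z, mem_fixS]
  have hZi : ∀ g, Z ≤ Z.comap (ρ g) := fun g v hv => by
    rw [Submodule.mem_comap, hZ]
    intro h k hk
    rw [← rho_mul ρ h g]
    exact (hZ v).1 hv _ k hk
  have hZK : ∀ k ∈ K, ∀ v ∈ Z, ρ k v = v := fun k hk v hv => by simpa using (hZ v).1 hv 1 k hk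
  have hUZ : ∀ U : Submodule (ZMod p) V, (∀ g, ∀ u ∈ U, ρ g u ∈ U) → U ≠ ⊤ → U ≤ Z :=
    fun U h1 h2 u hu => (hZ u).2 fun g k hk => uni U h1 h2 k hk _ (h1 g u hu)
  let ρ' := ρ.quotient Z hZi
  have hρ' : ∀ g v, ρ' g (Z.mkQ v) = Z.mkQ (ρ g v) := fun _ _ => rfl
  have hker : ∀ g, g ∈ MonoidHom.ker ρ' ↔ ∀ v, ρ g v - v ∈ Z := fun g => by
    rw [MonoidHom.mem_ker]
    constructor
    · intro h v
      rw [← Submodule.Quotient.eq]
      exact LinearMap.congr_fun h (Z.mkQ v)
    · intro h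
      ext v
      exact (Submodule.Quotient.eq Z).2 (h v)
  have hKρ' : ¬ K ≤ MonoidHom.ker ρ' := fun h =>
    hKρ (le_ker_of_quad hK fun x hx y hy v => hZK x hx _ ((hker y).1 (h hy) v))
  have hAc : ∀ c ∈ A, ∀ d ∈ A, Commute c d := fun c hc d hd =>
    congrArg Subtype.val (hAel.1.is_comm.comm ⟨c, hc⟩ ⟨d, hd⟩)
  have hgen : ∀ H : Subgroup G, K ≤ H → A ≤ H → ∀ g, g ∈ H := fun H h1 h2 g =>
    (hKA ▸ sup_le h1 h2 : ⊤ ≤ H) (mem_top g)
  have hA : ∀ c ∈ A, c ∈ MonoidHom.ker ρ' → c ∈ MonoidHom.ker ρ := by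
    intro c hc hc'
    by_contra hc1
    have h1 : ∀ k ∈ K, Commute k c := by
      by_contra h
      exact hKρ' (le_of_conj hK (fun k _ n hn => (MonoidHom.normal_ker ρ').conj_mem n hn k) hc' h)
    have h2 : ∀ g, Commute g c := fun g => mem_centralizer_singleton_iff.1
      (hgen (centralizer {c}) (fun k hk => mem_centralizer_singleton_iff.2 (h1 k hk))
        (fun d hd => mem_centralizer_singleton_iff.2 (hAc d hd c hc)) g)
    have h3 := hUZ (LinearMap.ker (ρ c - 1)) (fun g u hu => by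
      simp only [LinearMap.mem_ker, LinearMap.sub_apply, Module.End.one_apply, sub_eq_zero] at hu ⊢
      rw [← rho_mul, ← (h2 g).eq, rho_mul, hu]) (fun h => hc1 (by
        rw [LinearMap.ker_eq_top, sub_eq_zero] at h; exact h))
    refine hKρ' fun k hk => (hker k).2 fun v => h3 ?_
    have h4 := hZK k hk _ ((hker c).1 hc' v)
    simp only [LinearMap.mem_ker, LinearMap.sub_apply, Module.End.one_apply, map_sub] at h4 ⊢
    rw [← rho_mul, (h2 k).eq, rho_mul] at h4
    linear_combination (norm := abel) h4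
  haveI : Finite (V ⧸ Z) := Finite.of_surjective _ Z.mkQ_surjective
  refine hne (irr_case (ρ := ρ') hK hKρ' hAel (fun U h1 h2 => ?_) hb
    (fun h => ?_) (fun c hc v => ?_) ?_ ha)
  · by_cases h : U.comap Z.mkQ = ⊤
    · right
      rw [eq_top_iff]
      intro v _
      obtain ⟨v, rfl⟩ := Z.mkQ_surjective v
      exact (h ▸ Submodule.mem_top : v ∈ U.comap Z.mkQ)
    · left
      let H : Subgroup G :=
        { carrier := {g | ∀ u ∈ U, ρ' g u ∈ U}
          mul_mem' := fun {x y} hx hy u hu => by rw [rho_mul]; exact hx _ (hy u hu)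
          one_mem' := fun u hu => by simpa using hu
          inv_mem' := fun {x} hx u hu => by
            rw [← mul_one x⁻¹, ← pow_orderOf_eq_one x,
              ← Nat.succ_pred_eq_of_pos (orderOf_pos x), pow_succ', inv_mul_cancel_left]
            induction (orderOf x).pred with
            | zero => simpa using hu
            | succ n ih => rw [pow_succ', rho_mul]; exact hx _ ih }
      have h3 := hUZ _ (fun g u hu => hgen H h1 h2 g _ hu) h
      rw [eq_bot_iff]
      intro v hv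
      obtain ⟨v, rfl⟩ := Z.mkQ_surjective v
      exact (Submodule.Quotient.mk_eq_zero Z).2 (h3 hv)
  · obtain ⟨v, hv⟩ := hb1
    exact hv (LinearMap.congr_fun (hA b hb h) v)
  · obtain ⟨v, rfl⟩ := Z.mkQ_surjective v
    rw [hρ', ← map_sub, hρ']
    congr 1
    have := hq c hc v
    rw [map_sub, ← rho_mul, (hAc b hb c hc).eq, rho_mul] at this
    rw [map_sub]
    linear_combination (norm := abel) this
  · have h1 := hP (A ⊓ MonoidHom.ker ρ') inf_le_left
    have h2 : Nat.card {v : V // ∀ b ∈ A ⊓ MonoidHom.ker ρ', ρ b v = v} = Nat.card V :=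
      Nat.card_congr (Equiv.subtypeUnivEquiv fun v c hc => LinearMap.congr_fun (hA c hc.1 hc.2) v)
    have h3 : Nat.card {v : V // ∀ a ∈ A, ρ a v = v} ≤
        Nat.card Z * Nat.card {v : V ⧸ Z // ∀ a ∈ A, ρ' a v = v} := by
      let f : fixS ρ A →ₗ[ZMod p] fixS ρ' A :=
        Z.mkQ.restrict fun v hv c hc => by rw [hρ', hv c hc]
      change Nat.card (fixS ρ A) ≤ _ * Nat.card (fixS ρ' A)
      rw [Submodule.card_eq_card_quotient_mul_card (LinearMap.ker f),
        Nat.card_congr f.quotKerEquivRange.toEquiv]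
      refine Nat.mul_le_mul ?_ (Nat.card_le_card_of_injective _ Subtype.val_injective)
      refine Nat.card_le_card_of_injective (fun v => ⟨v.1.1, (Submodule.Quotient.mk_eq_zero Z).1
        (congrArg Subtype.val v.2)⟩) fun v w h => Subtype.ext (Subtype.ext (by simpa using h))
    rw [h2, Submodule.card_eq_card_quotient_mul_card Z] at h1
    have h4 : 0 < Nat.card Z := Nat.card_pos
    apply Nat.le_of_mul_le_mul_left _ h4
    calc _ = Nat.card ↥(A ⊓ MonoidHom.ker ρ') * (Nat.card Z * Nat.card (V ⧸ Z)) := by ring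
      _ ≤ Nat.card A * (Nat.card Z * Nat.card {v : V ⧸ Z // ∀ a ∈ A, ρ' a v = v}) :=
        h1.trans (Nat.mul_le_mul_left _ h3)
      _ = _ := by ring

theorem gen_case (hK : Cfsg.IsComponent K) (hKρ : ¬ K ≤ MonoidHom.ker ρ) (hKA : K ⊔ A = ⊤)
    (hAel : Cfsg.IsElementaryAbelian p A)
    (hP : ∀ B : Subgroup G, B ≤ A →
      Nat.card ↥B * Nat.card {v : V // ∀ b ∈ B, ρ b v = v} ≤
        Nat.card ↥A * Nat.card {v : V // ∀ a ∈ A, ρ a v = v}) {a : G} (ha : a ∈ A) : kc K a = K := by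
  obtain ⟨W, ⟨hW, hW1⟩, hmin⟩ := (wellFounded_lt (α := Submodule (ZMod p) V)).has_min
    {W | (∀ g, ∀ w ∈ W, ρ g w ∈ W) ∧ ¬ ∀ k ∈ K, ∀ w ∈ W, ρ k w = w}
    ⟨⊤, fun _ _ _ => trivial, fun h => hKρ fun k hk => LinearMap.ext fun v => h k hk v trivial⟩
  let ρ' := ρ.subrepresentation W hW
  have hρ' : ∀ g (w : W), (ρ' g w : V) = ρ g w := fun _ _ => rfl
  have hc : ∀ B : Subgroup G, Nat.card {w : W // ∀ b ∈ B, ρ' b w = w} =
      Nat.card {w : W // ∀ b ∈ B, ρ b w = w} := fun B =>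
    Nat.card_congr (Equiv.subtypeEquivRight fun w => by simp only [Subtype.ext_iff, hρ'])
  refine uni_case (ρ := ρ') hK (fun h => hW1 fun k hk w hw =>
    congrArg Subtype.val (LinearMap.congr_fun (h hk) ⟨w, hw⟩)) hKA hAel (fun U h1 h2 k hk u hu => ?_)
    (fun B hB => ?_) ha
  · by_contra h3
    refine hmin (U.map W.subtype) ⟨?_, fun h => h3 (Subtype.ext (h k hk _ ⟨u, hu, rfl⟩))⟩ ?_
    · rintro g _ ⟨u, hu, rfl⟩
      exact ⟨_, h1 g u hu, rfl⟩
    · refine lt_of_le_of_ne (Submodule.map_subtype_le _ _) fun h => h2 ?_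
      apply Submodule.map_injective_of_injective W.subtype_injective
      rw [h, Submodule.map_top, Submodule.range_subtype]
  · have h1 := Cfsg.Agent.S3087.result p ρ W hW A hP (B ⊔ (A ⊓ fixG ρ W)) (sup_le hB inf_le_left)
      (fun c hc h => mem_sup_right ⟨hc, h⟩)
    rw [hc, hc]
    refine le_trans (Nat.mul_le_mul (card_le_of_le le_sup_left) (le_of_eq ?_)) h1
    refine Nat.card_congr (Equiv.subtypeEquivRight fun w => ⟨fun h c hc => ?_, fun h c hc =>
      h c (mem_sup_left hc)⟩)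
    have : B ⊔ (A ⊓ fixG ρ W) ≤ fixG ρ {(w : V)} :=
      sup_le (fun b hb u hu => by rw [hu]; exact h b hb) (fun b hb u hu => by rw [hu]; exact hb.2 _ w.2)
    exact this hc _ rfl

theorem pgv (hρ : Function.Injective ρ) (hK : Cfsg.IsComponent K) (hAel : Cfsg.IsElementaryAbelian p A)
    (hP : ∀ B : Subgroup G, B ≤ A →
      Nat.card ↥B * Nat.card {v : V // ∀ b ∈ B, ρ b v = v} ≤
        Nat.card ↥A * Nat.card {v : V // ∀ a ∈ A, ρ a v = v}) : A ≤ normalizer (K : Set G) := by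
  intro a ha
  let S := K ⊔ A
  let ρ' : Representation (ZMod p) S V := ρ.comp S.subtype
  have hc : ∀ B : Subgroup S, Nat.card ↥B * Nat.card {v : V // ∀ b ∈ B, ρ' b v = v} =
      Nat.card ↥(B.map S.subtype) * Nat.card {v : V // ∀ b ∈ B.map S.subtype, ρ b v = v} := fun B => by
    rw [card_map_of_injective S.subtype_injective]
    congr 1
    refine Nat.card_congr (Equiv.subtypeEquivRight fun v => ⟨?_, fun h b hb => h _ ⟨b, hb, rfl⟩⟩)
    rintro h _ ⟨b, hb, rfl⟩
    exact h b hb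
  have h := gen_case (ρ := ρ') (K := K.subgroupOf S) (A := A.subgroupOf S)
    (CfsgLib.Comp.comp_subgroupOf hK le_sup_left) (fun h => CfsgLib.Comp.comp_ne_bot hK (by
      rw [eq_bot_iff]
      intro k hk
      exact hρ ((h (x := ⟨k, mem_sup_left hk⟩) hk).trans (map_one ρ).symm)))
    (by rw [← subgroupOf_sup le_sup_left le_sup_right, subgroupOf_self])
    ⟨by haveI := hAel.1; infer_instance, fun c hc => Subtype.ext (hAel.2 c hc)⟩
    (fun B hB => by
      rw [hc, hc, map_subgroupOf_eq_of_le le_sup_right]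
      exact hP _ (map_le_iff_le_comap.2 hB)) (a := ⟨a, mem_sup_right ha⟩) ha
  apply mem_normalizer_of_kc
  ext y
  rw [mem_kc]
  constructor
  · intro hy
    have h1 : (⟨a, mem_sup_right ha⟩ * ⟨_, mem_sup_left hy⟩ * (⟨a, mem_sup_right ha⟩ : S)⁻¹ : S) ∈
        K.subgroupOf S := conj_mem_of_kc h hy
    simpa [mem_subgroupOf, mul_assoc] using h1
  · intro hy
    have h1 : (⟨y, mem_sup_left hy⟩ : S) ∈ kc (K.subgroupOf S) ⟨a, mem_sup_right ha⟩ := by
      rw [h]; exact hy
    rw [mem_kc] at h1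
    exact h1

end CfsgLib.PGV
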